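import Cfsg.Agent.H930.ExtUJ
import Cfsg.Agent.H930.TTrans
import Cfsg.Agent.H913.UExt7

/-!
# The normaliser of an adjoint-closed field of odd prime degree `r`, `n = m r` with `m ≥ 3`, is maximal in `SU_n(q)`
-/

set_option autoImplicit false
set_option linter.unusedSectionVars false
set_option linter.unusedSimpArgs false

namespace Cfsg.Agent.H930.ExtU

open Module Cfsg Cfsg.Geo
open scoped MatrixGroups Matrix
open Cfsg.Agent.LieClassical.HermBasic Cfsg.Agent.LieClassical.HermSiegel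
open Cfsg.Agent.H879 (Has toEq toEq_apply has_map_iff)
open Cfsg.Agent.H918 (SUg mem_SUg mem_GU mem_specialLinear)
open Cfsg.Agent.H924 (adjM)
open Cfsg.Agent.H913.SU6Cubic (stK)

section Pull

variable {F K : Type*} [Field F] [Field K] [Algebra F K] {n m : ℕ}

/-- The subgroup of `GL_F(K^m)` induced by a subgroup of `GL_n(F)`. -/
def pull (β : (Fin m → K) ≃ₗ[F] (Fin n → F)) (M : Subgroup (GL (Fin n) F)) :
    Subgroup ((Fin m → K) ≃ₗ[F] (Fin m → K)) where
  carrier := {s | ∃ g ∈ M, ∀ x, β (s x) = (g : Matrix (Fin n) (Fin n) F) *ᵥ β x}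
  mul_mem' := by
    rintro s t ⟨g, hg, h1⟩ ⟨g', hg', h2⟩
    refine ⟨g * g', M.mul_mem hg hg', fun x => ?_⟩
    rw [LinearEquiv.mul_apply, h1, h2, Matrix.mulVec_mulVec]
    rfl
  one_mem' := ⟨1, M.one_mem, fun x => by simp⟩
  inv_mem' := by
    rintro s ⟨g, hg, h1⟩
    refine ⟨g⁻¹, M.inv_mem hg, fun x => ?_⟩
    have h2 := h1 (s⁻¹ x)
    rw [H879.apply_inv_apply] at h2
    rw [h2, Matrix.mulVec_mulVec, ← Units.val_mul, inv_mul_cancel, Units.val_one, Matrix.one_mulVec]

theorem mem_pull {β : (Fin m → K) ≃ₗ[F] (Fin n → F)} {M : Subgroup (GL (Fin n) F)}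
    {s : (Fin m → K) ≃ₗ[F] (Fin m → K)} :
    s ∈ pull β M ↔ ∃ g ∈ M, ∀ x, β (s x) = (g : Matrix (Fin n) (Fin n) F) *ᵥ β x := Iff.rfl

/-- transport of an element of `GL_n(F)`. -/
noncomputable def trans (β : (Fin m → K) ≃ₗ[F] (Fin n → F)) (g : GL (Fin n) F) :
    (Fin m → K) ≃ₗ[F] (Fin m → K) := (β.trans (toEq g)).trans β.symm

theorem trans_apply (β : (Fin m → K) ≃ₗ[F] (Fin n → F)) (g : GL (Fin n) F) (x : Fin m → K) :
    β (trans β g x) = (g : Matrix (Fin n) (Fin n) F) *ᵥ β x := by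
  show β (β.symm (toEq g (β x))) = _
  rw [LinearEquiv.apply_symm_apply, toEq_apply]

theorem trans_mem {β : (Fin m → K) ≃ₗ[F] (Fin n → F)} {M : Subgroup (GL (Fin n) F)} {g : GL (Fin n) F} (hg : g ∈ M) :
    trans β g ∈ pull β M := ⟨g, hg, trans_apply β g⟩

end Pull

universe u

variable {F : Type u} [Field F] [Fintype F]

/-- The conclusion, given the dichotomy. -/
theorem maximal_of_dichotomy {n q r m : ℕ} (hF : Fintype.card F = q ^ 2) (hn : n = m * r) (hm : 2 ≤ m) (hr3 : 3 ≤ r)
    (hodd : Odd r) {K : Subalgebra F (Matrix (Fin n) (Fin n) F)}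
    (hK : IsFieldSubalgebra r K) (hadj : IsAdjointClosedFor (hermForm n F q) K)
    (hdich : ∀ (K' : Type u) [Field K'] [Fintype K'] [Algebra F K'] (ℓ : K' →ₗ[F] F),
      Data q (q ^ r) ℓ → finrank F K' = r →
      ∀ M : Subgroup ((Fin m → K') ≃ₗ[F] (Fin m → K')),
        Hyp (q ^ r) ℓ M → (∀ A : (Fin m → K') ≃ₗ[K'] (Fin m → K'),
          (∀ x y, hermForm m K' (q ^ r) (A x) (A y) = hermForm m K' (q ^ r) x y) →
          Algebra.norm F (LinearMap.det (A : (Fin m → K') →ₗ[K'] (Fin m → K'))) = 1 → Has M A) →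
        (∀ g ∈ M, ∃ τ : K' → K', ∀ k x, g (k • x) = τ k • g x) ∨
        (∀ z, ℓ (hermForm m K' (q ^ r) z z) = 0 → ∀ e : F, e + e ^ q = 0 → Has M (FT (q ^ r) ℓ z e))) :
    IsMaximalIn (SUg n F q) (subalgebraNormalizer K ⊓ SUg n F q) := by
  classical
  have hn3 : 3 ≤ n := by
    rw [hn]
    calc 3 ≤ 2 * 3 := by norm_num
      _ ≤ m * r := Nat.mul_le_mul hm hr3
  have hn6 : 6 ≤ n := by
    rw [hn]
    calc 6 = 2 * 3 := by norm_num
      _ ≤ m * r := Nat.mul_le_mul hm hr3
  have hne : NeZero n := ⟨by omega⟩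
  have h32 : ¬ (n = 3 ∧ q = 2) := by omega
  refine ⟨lt_of_le_of_ne inf_le_right fun heq => ?_, fun M hHM hMS => ?_⟩
  · exact Cfsg.Agent.H918.SUg_not_le_subalgebraNormalizer hF hn3 h32 (by omega) hK
      (heq.symm.le.trans inf_le_left)
  let _ : Field K := (H912.isField_of_fieldSub hK).toField
  let _ : Fintype K := Fintype.ofFinite K
  have hH := H921.herm_hermForm (n := n) hF
  set f := hermForm n F q with hf
  set st := stK hF hK.comm hadj with hst
  have hfinK : finrank F K = r := hK.finrank_eq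
  have hst_st : ∀ k, st (st k) = k := fun k => st.left_inv k
  have hst_alg : ∀ c : F, st (algebraMap F K c) = algebraMap F K (c ^ q) := by
    intro c
    apply Subtype.ext
    change adjM (conj hF) f (algebraMap F (Matrix (Fin n) (Fin n) F) c) =
      algebraMap F (Matrix (Fin n) (Fin n) F) (c ^ q)
    rw [Algebra.algebraMap_eq_smul_one, H924.adjM_smul hH, H924.adjM_one hH,
      Algebra.algebraMap_eq_smul_one]
    rfl
  obtain ⟨ℓ, D⟩ := exists_data (K := K) hF (by rw [hfinK]; exact hodd)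
  rw [hfinK] at D
  have hstk : ∀ k, st k = k ^ (q ^ r) := fun k =>
    D.eq_pow (by rw [hfinK]; exact hodd) (st : K →+* K) hst_st hst_alg k
  have hadjf : ∀ (k : K) (u v : Fin n → F), f (k • u) v = f u (k ^ (q ^ r) • v) := fun k u v => by
    rw [← hstk]
    exact H924.isAdj_adjM hH (k : Matrix (Fin n) (Fin n) F) u v
  obtain ⟨m', β, hβ⟩ := exists_coord D f (fun x y z => herm_add_left x y z) (fun c x y => herm_smul_left c x y)
    (fun x y => herm_swap hF x y) (fun x hx => herm_nondeg hF hx) hadjf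
  have hm' : m' = m := by
    have h1 : finrank K (Fin n → F) = m' := by
      rw [← β.finrank_eq, finrank_fin_fun]
    have h2 := Module.finrank_mul_finrank F K (Fin n → F)
    rw [hfinK, h1, Module.finrank_fin_fun, hn, mul_comm m r] at h2
    exact Nat.eq_of_mul_eq_mul_left (by omega : 0 < r) h2
  subst hm'
  let βF : (Fin m' → K) ≃ₗ[F] (Fin n → F) := β.restrictScalars F
  have hβF : ∀ x, βF x = β x := fun _ => rfl
  have hbig : ∀ A : (Fin m' → K) ≃ₗ[K] (Fin m' → K),
      (∀ x y, hermForm m' K (q ^ r) (A x) (A y) = hermForm m' K (q ^ r) x y) →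
      Algebra.norm F (LinearMap.det (A : (Fin m' → K) →ₗ[K] (Fin m' → K))) = 1 → Has (pull βF M) A := by
    intro A hA hdet
    let T : (Fin n → F) ≃ₗ[F] (Fin n → F) := (βF.symm.trans (A.restrictScalars F)).trans βF
    have hT : ∀ x, T (β x) = β (A x) := by
      intro x
      show βF (A (βF.symm (βF x))) = β (A x)
      rw [LinearEquiv.symm_apply_apply, hβF]
    have hTdet : LinearMap.det (T : (Fin n → F) →ₗ[F] (Fin n → F)) = 1 := by
      have h1 : (T : (Fin n → F) →ₗ[F] (Fin n → F)) =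
          (βF : (Fin m' → K) →ₗ[F] (Fin n → F)) ∘ₗ ((A : (Fin m' → K) →ₗ[K] (Fin m' → K)).restrictScalars F) ∘ₗ
            (βF.symm : (Fin n → F) →ₗ[F] (Fin m' → K)) := rfl
      rw [h1, LinearMap.det_conj, LinearMap.det_restrictScalars, hdet]
    obtain ⟨G, hG⟩ := (toEq (ι := Fin n) (F := F)).surjective T
    have hGx : ∀ x, (G : Matrix (Fin n) (Fin n) F) *ᵥ x = T x := by
      intro x
      rw [← toEq_apply, hG]
    have hGM : G ∈ M := by
      apply hHM
      refine ⟨?_, ?_⟩
      · apply Cfsg.Agent.H879.mem_subalgebraNormalizer_of_semilinear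
        intro k hk
        refine ⟨k, hk, fun x => ?_⟩
        obtain ⟨y, rfl⟩ := β.surjective x
        have h1 : k *ᵥ (β y) = β ((⟨k, hk⟩ : K) • y) := by
          rw [map_smul]
          rfl
        have h2 : k *ᵥ (β (A y)) = β ((⟨k, hk⟩ : K) • A y) := by
          rw [map_smul]
          rfl
        rw [h1, hGx, hGx, hT, hT, map_smul, h2]
      · show G ∈ SUg n F q
        rw [mem_SUg]
        refine ⟨fun u v => ?_, ?_⟩
        · obtain ⟨x, rfl⟩ := β.surjective u
          obtain ⟨y, rfl⟩ := β.surjective v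
          rw [hGx, hGx, hT, hT]
          show f _ _ = f _ _
          rw [hβ, hβ, hA]
        · rw [← LinearMap.det_toLin', ← hTdet]
          congr 1
          apply LinearMap.ext
          intro x
          rw [Matrix.toLin'_apply]
          exact hGx x
    refine ⟨_, trans_mem hGM, fun x => ?_⟩
    apply βF.injective
    rw [trans_apply, hβF, hβF, hGx, hT]
  have hhyp : Hyp (q ^ r) ℓ (pull βF M) :=
    { pres := by
        rintro s ⟨g, hg, hs⟩ x y
        have h1 := (mem_SUg.1 (hMS hg)).1 (β x) (β y)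
        rw [← hβF, ← hβF, ← hs, ← hs, hβF, hβF, hβF, hβF] at h1
        have h2 := hβ (s x) (s y)
        have h3 := hβ x y
        rw [← h2, ← h3]
        exact h1
      su := by
        intro g
        let A : (Fin m' → K) ≃ₗ[K] (Fin m' → K) := Matrix.toLin'OfInv (M := mat g⁻¹) (M' := mat g)
          (by rw [← mat_mul, inv_mul_cancel, mat_one]) (by rw [← mat_mul, mul_inv_cancel, mat_one])
        have hA : ∀ x, A x = act g x := fun x => by
          show Matrix.toLin' (mat g) x = _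
          rw [Matrix.toLin'_apply]
          rfl
        refine (hbig A (fun x y => ?_) ?_).congr hA
        · rw [hA, hA]
          exact herm_act g x y
        · have h1 : LinearMap.det (A : (Fin m' → K) →ₗ[K] (Fin m' → K)) = (mat g).det := by
            rw [← LinearMap.det_toLin']
            rfl
          rw [h1, det_mat, map_one] }
  rcases hdich K ℓ D hfinK (pull βF M) hhyp hbig with h1 | h1
  · left
    refine le_antisymm (le_inf ?_ hMS) hHM
    intro g hg
    apply Cfsg.Agent.H879.mem_subalgebraNormalizer_of_semilinear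
    intro k hk
    obtain ⟨τ, hτ⟩ := h1 _ (trans_mem (β := βF) hg)
    refine ⟨τ ⟨k, hk⟩, (τ ⟨k, hk⟩).2, fun x => ?_⟩
    obtain ⟨y, rfl⟩ := β.surjective x
    have h2 := congrArg βF (hτ ⟨k, hk⟩ y)
    rw [trans_apply, hβF, hβF, map_smul, map_smul, ← hβF (trans βF g y), trans_apply, hβF] at h2
    exact h2
  · right
    refine le_antisymm hMS ?_
    apply Cfsg.Agent.H930.SUg_le_of_TT hF h32
    intro v hv
    refine ⟨hv, fun c hc => ?_⟩
    obtain ⟨z, rfl⟩ := β.surjective v
    have hz : ℓ (hermForm m' K (q ^ r) z z) = 0 := by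
      rw [← hβ]
      exact hv
    obtain ⟨s, ⟨g, hg, hgs⟩, hs⟩ := h1 z hz c hc
    refine ⟨g, hg, fun x => ?_⟩
    obtain ⟨y, rfl⟩ := β.surjective x
    rw [← hβF, ← hgs, hs, FT_apply, map_add, map_smul, hβF, hβF]
    congr 2
    rw [← hβ]

/-- **The normaliser of an adjoint-closed field of odd prime degree `r` is maximal in `SU_n(q)`, `n ≥ 3 r`.** -/
theorem maximal {n q r : ℕ} (hF : Fintype.card F = q ^ 2) (hr : r.Prime) (hodd : Odd r) (hn : 3 * r ≤ n)
    {K : Subalgebra F (Matrix (Fin n) (Fin n) F)}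
    (hK : IsFieldSubalgebra r K) (hadj : IsAdjointClosedFor (hermForm n F q) K) :
    IsMaximalIn (SUg n F q) (subalgebraNormalizer K ⊓ SUg n F q) := by
  have hr3 : 3 ≤ r := by
    have := hr.two_le
    have h2 : r ≠ 2 := by rintro rfl; exact absurd hodd (by decide)
    omega
  have hne : NeZero n := ⟨by omega⟩
  obtain ⟨m, hm⟩ := H912.finrank_dvd_of_fieldSub hK
  rw [Fintype.card_fin] at hm
  have hm3 : 3 ≤ m := by
    rw [hm, mul_comm 3 r] at hn
    exact Nat.le_of_mul_le_mul_left hn (by omega)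
  refine maximal_of_dichotomy (m := m) hF (by rw [hm, mul_comm]) (by omega) hr3 hodd hK hadj ?_
  intro K' _ _ _ ℓ D hfr M h _
  exact h.dichotomy D (by rw [hfr]; exact hr) (by rw [hfr]; exact hr3) hm3

end Cfsg.Agent.H930.ExtU
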