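import Cfsg.Agent.H930.ExtVE

/-!
# The case `m = 2`: the semilinear alternative (Chevalley-Warning)
-/

set_option autoImplicit false
set_option linter.unusedSectionVars false
set_option linter.unusedSimpArgs false

namespace Cfsg.Agent.H930.ExtU

open Module Cfsg Cfsg.Agent.LieClassical.HermBasic Cfsg.Agent.LieClassical.HermSiegel Cfsg.Agent.H879
open Cfsg.Agent.LieClassical.HermGen

section CW

open MvPolynomial

variable {F : Type*} [Field F] [Fintype F] {q : ℕ}

/-- Hermitian forms in more variables than forms have a common zero. -/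
theorem exists_common_zero (hF : Fintype.card F = q ^ 2) {ι σ : Type*} [Fintype ι] [Fintype σ] [DecidableEq σ]
    (hcard : Fintype.card ι < Fintype.card σ) (G : ι → σ → σ → F) (hG : ∀ i j k, (G i j k) ^ q = G i k j) :
    ∃ x : σ → F, x ≠ 0 ∧ ∀ i, ∑ j, ∑ k, G i j k * (x j * x k ^ q) = 0 := by
  classical
  have hq := two_le hF
  set p : ι → MvPolynomial σ F := fun i => ∑ j, ∑ k, C (G i j k) * (X j * X k ^ q) with hp
  have hpdeg : ∀ i, (p i).totalDegree ≤ q + 1 := by
    intro i
    refine (totalDegree_finsetSum _ _).trans (Finset.sup_le fun j _ => ?_)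
    refine (totalDegree_finsetSum _ _).trans (Finset.sup_le fun k _ => ?_)
    refine (totalDegree_mul _ _).trans ?_
    rw [totalDegree_C, zero_add]
    refine (totalDegree_mul _ _).trans ?_
    rw [totalDegree_X, totalDegree_X_pow, add_comm]
  have hpev : ∀ i x, eval x (p i) = ∑ j, ∑ k, G i j k * (x j * x k ^ q) := by
    intro i x
    rw [hp, map_sum]
    refine Finset.sum_congr rfl fun j _ => ?_
    rw [map_sum]
    refine Finset.sum_congr rfl fun k _ => ?_
    rw [map_mul, map_mul, map_pow, eval_C, eval_X, eval_X]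
  have hfix : ∀ i x, (eval x (p i)) ^ q = eval x (p i) := by
    intro i x
    rw [hpev, sum_pow_q hF]
    rw [Finset.sum_congr rfl fun j _ => sum_pow_q hF _ _]
    rw [Finset.sum_comm]
    refine Finset.sum_congr rfl fun j _ => Finset.sum_congr rfl fun k _ => ?_
    rw [mul_pow, mul_pow, hG, pow_q_pow_q hF]
    ring
  set f : MvPolynomial σ F := ∏ i, (1 - p i ^ (q - 1)) with hf
  have hfdeg : f.totalDegree < (Fintype.card F - 1) * Fintype.card σ := by
    have h1 : f.totalDegree ≤ Fintype.card ι * ((q - 1) * (q + 1)) := by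
      refine (totalDegree_finsetProd _ _).trans ?_
      refine (Finset.sum_le_card_nsmul _ _ ((q - 1) * (q + 1)) fun i _ => ?_).trans (by
        rw [Finset.card_univ, smul_eq_mul])
      refine (totalDegree_sub _ _).trans (max_le (by rw [totalDegree_one]; exact Nat.zero_le _) ?_)
      refine (totalDegree_pow _ _).trans ?_
      exact Nat.mul_le_mul_left _ (hpdeg i)
    have h2 : Fintype.card F - 1 = (q - 1) * (q + 1) := by
      rw [hF]
      obtain ⟨u, rfl⟩ := Nat.exists_eq_add_of_le (show 1 ≤ q by omega)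
      rw [Nat.add_sub_cancel_left]
      have : (1 + u) ^ 2 = u * (1 + u + 1) + 1 := by ring
      omega
    have h3 : 0 < (q - 1) * (q + 1) := Nat.mul_pos (by omega) (by omega)
    rw [h2, mul_comm ((q - 1) * (q + 1))]
    exact lt_of_le_of_lt h1 (Nat.mul_lt_mul_of_pos_right hcard h3)
  have hsum := MvPolynomial.sum_eval_eq_zero f hfdeg
  by_contra hcon
  push Not at hcon
  have hval : ∀ x : σ → F, eval x f = if x = 0 then 1 else 0 := by
    intro x
    rw [hf, map_prod]
    by_cases hx : x = 0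
    · rw [if_pos hx]
      apply Finset.prod_eq_one
      intro i _
      have h0 : eval x (p i) = 0 := by
        rw [hpev]
        apply Finset.sum_eq_zero
        intro j _
        apply Finset.sum_eq_zero
        intro k _
        rw [hx, Pi.zero_apply, zero_mul, mul_zero]
      rw [map_sub, map_one, map_pow, h0, zero_pow (by omega), sub_zero]
    · rw [if_neg hx]
      obtain ⟨i, hi⟩ := hcon x hx
      apply Finset.prod_eq_zero (Finset.mem_univ i)
      rw [← hpev] at hi
      have h1 : (eval x (p i)) ^ (q - 1) = 1 := by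
        apply mul_right_cancel₀ hi
        rw [← pow_succ, one_mul, Nat.sub_add_cancel (by omega), hfix]
      rw [map_sub, map_one, map_pow, h1, sub_self]
  rw [Finset.sum_congr rfl fun x _ => hval x, Finset.sum_ite_eq' Finset.univ (0 : σ → F), if_pos (Finset.mem_univ _)] at hsum
  exact one_ne_zero hsum

end CW

variable {F K : Type*} [Field F] [Fintype F] [Field K] [Fintype K] [Algebra F K] {q Q m : ℕ} {ℓ : K →ₗ[F] F}

section Image

variable {M : Subgroup ((Fin m → K) ≃ₗ[F] (Fin m → K))} (D : Data q Q ℓ) (h : Hyp Q ℓ M)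

include D h in
/-- The image of an isotropic line contains isotropic vectors. -/
theorem Hyp.exists_iso_image {g : (Fin m → K) ≃ₗ[F] (Fin m → K)} (hg : g ∈ M) {v : Fin m → K}
    (hv : hermForm m K Q v v = 0) : ∃ k : K, k ≠ 0 ∧ hermForm m K Q (g (k • v)) (g (k • v)) = 0 := by
  classical
  have := D.finDim
  obtain ⟨ω, hω⟩ := D.exists_omega
  obtain ⟨Y, hYs, h1Y, hYt, hYi⟩ := exists_linearIndepOn_id_extension (K := F) (s := {(1 : K)}) (t := {k : K | k ^ Q = k})
    (by
      rw [linearIndepOn_singleton_iff]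
      exact one_ne_zero)
    (by
      intro x hx
      rw [Set.mem_singleton_iff] at hx
      rw [hx]
      exact one_pow _)
  have hspan : Submodule.span F Y = ⊤ := by
    rw [Submodule.eq_top_iff']
    intro k
    obtain ⟨a, b, ha, hb, rfl⟩ := D.exists_decomp hω k
    exact Submodule.add_mem _ (hYt ha) (Submodule.smul_mem _ _ (hYt hb))
  have : Fintype Y := Fintype.ofFinite Y
  have h1 : (1 : K) ∈ Y := h1Y rfl
  let y₁ : Y := ⟨1, h1⟩
  obtain ⟨x, hx0, hx⟩ := exists_common_zero D.hF (ι := {y : Y // y ≠ y₁}) (σ := Y) (by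
    exact Fintype.card_subtype_lt (p := fun y : Y => y ≠ y₁) (x := y₁) (by simp))
    (fun i j k => ℓ ((i.1 : K) * hermForm m K Q (g ((j : K) • v)) (g ((k : K) • v)))) (by
      intro i j k
      rw [← D.lpow, mul_pow, ← herm_swap D.hK]
      congr 2
      exact hYs i.1.2)
  obtain ⟨k₀, hk₀⟩ : ∃ k₀ : K, k₀ = ∑ y : Y, x y • (y : K) := ⟨_, rfl⟩
  have hgk : g (k₀ • v) = ∑ y : Y, x y • g ((y : K) • v) := by
    rw [hk₀, Finset.sum_smul, map_sum]
    refine Finset.sum_congr rfl fun y _ => ?_
    rw [smul_assoc, map_smul]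
  have hval : ∀ z : K, ℓ (z * hermForm m K Q (g (k₀ • v)) (g (k₀ • v))) =
      ∑ j : Y, ∑ k : Y, ℓ (z * hermForm m K Q (g ((j : K) • v)) (g ((k : K) • v))) * (x j * x k ^ q) := by
    intro z
    rw [hgk, herm_sum_left, Finset.mul_sum, map_sum]
    refine Finset.sum_congr rfl fun j _ => ?_
    rw [herm_sum_right D.hK, Finset.mul_sum, map_sum]
    refine Finset.sum_congr rfl fun k _ => ?_
    rw [← algebraMap_smul K (x j), ← algebraMap_smul K (x k), herm_smul_left, herm_smul_right, D.alg]
    have e1 : z * (algebraMap F K (x j) * (algebraMap F K (x k ^ q) * hermForm m K Q (g ((j : K) • v)) (g ((k : K) • v)))) =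
        algebraMap F K (x j * x k ^ q) * (z * hermForm m K Q (g ((j : K) • v)) (g ((k : K) • v))) := by
      rw [map_mul]; ring
    rw [e1, ell_alg', mul_comm]
  refine ⟨k₀, fun h0 => ?_, ?_⟩
  · apply hx0
    have h2 : ∑ y : Y, x y • (y : K) = 0 := by rw [← hk₀, h0]
    have h3 : LinearIndependent F (fun y : Y => (y : K)) := hYi
    exact funext ((Fintype.linearIndependent_iff.1 h3) x h2)
  · apply D.eq_zero
    intro z
    have hz : z ∈ Submodule.span F Y := by rw [hspan]; trivial
    induction hz using Submodule.span_induction with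
    | mem z hz =>
      by_cases hz1 : z = 1
      · rw [hz1, one_mul, h.pres g hg, herm_smul_left, herm_smul_right, hv, mul_zero, mul_zero, map_zero]
      · rw [hval]
        have h4 : (⟨z, hz⟩ : Y) ≠ y₁ := fun h5 => hz1 (congrArg Subtype.val h5)
        exact hx ⟨⟨z, hz⟩, h4⟩
    | zero => rw [zero_mul, map_zero]
    | add a b _ _ ha hb => rw [add_mul, map_add, ha, hb, add_zero]
    | smul c a _ ha => rw [smul_mul_assoc, map_smul, ha, smul_zero]

end Image

section Two

variable {M : Subgroup ((Fin 2 → K) ≃ₗ[F] (Fin 2 → K))} (D : Data q Q ℓ) (h : Hyp Q ℓ M)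

include D h in
theorem Hyp.line_two (hA : AllReg Q M) {g : (Fin 2 → K) ≃ₗ[F] (Fin 2 → K)} (hg : g ∈ M) {v : Fin 2 → K}
    (hv0 : v ≠ 0) (hv : hermForm 2 K Q v v = 0) : ∃ σ : K → K, ∀ k : K, g (k • v) = σ k • g v := by
  obtain ⟨k₀, hk₀, hiso⟩ := h.exists_iso_image D hg hv
  have ha0 : g (k₀ • v) ≠ 0 := by
    intro h0
    apply smul_ne_zero hk₀ hv0
    apply g.injective
    rw [h0, map_zero]
  obtain ⟨p, P⟩ := exists_hp D ha0 hiso
  have P' := P.symm D.hK
  have h1 : ∀ k : K, ∃ c : K, g (k • v) = c • g (k₀ • v) := by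
    intro k
    have h2 := hA g hg (g (k₀ • v)) v hiso hv k₀ hk₀ hiso k
    refine ⟨hermForm 2 K Q (g (k • v)) p, ?_⟩
    have h3 := P'.expand D.hK (g (k • v))
    rw [h2, zero_smul, add_zero] at h3
    exact h3
  choose c hc using h1
  have hc1 : c 1 ≠ 0 := by
    intro h0
    have h2 := hc 1
    rw [h0, zero_smul, one_smul] at h2
    exact hv0 (g.injective (by rw [h2, map_zero]))
  refine ⟨fun k => c k * (c 1)⁻¹, fun k => ?_⟩
  have h2 := hc 1
  rw [one_smul] at h2
  rw [hc, h2, smul_smul, inv_mul_cancel_right₀ hc1]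

include D h in
theorem Hyp.semi_two (hA : AllReg Q M) {g : (Fin 2 → K) ≃ₗ[F] (Fin 2 → K)} (hg : g ∈ M) :
    ∃ τ : K → K, ∀ k x, g (k • x) = τ k • g x := by
  have H : ∀ v : Fin 2 → K, v ≠ 0 → hermForm 2 K Q v v = 0 → ∃ σ : K → K, ∀ k : K, g (k • v) = σ k • g v :=
    fun v hv0 hv => h.line_two D hA hg hv0 hv
  choose! σ hσ using H
  exact Mult.semi (σ := σ) ⟨hσ⟩ D le_rfl

include D h in
/-- **The dichotomy for `m = 2`.** -/
theorem Hyp.dichotomy_two (hB : Big Q M) (hr : (finrank F K).Prime) (hodd : Odd (finrank F K))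
    (hex : ¬ (finrank F K = 3 ∧ q = 2)) :
    (∀ g ∈ M, ∃ τ : K → K, ∀ k x, g (k • x) = τ k • g x) ∨
    (∀ z, ℓ (hermForm 2 K Q z z) = 0 → ∀ e : F, e + e ^ q = 0 → Has M (FT Q ℓ z e)) := by
  have hr3 : 3 ≤ finrank F K := by
    have := hr.two_le
    have h2 : finrank F K ≠ 2 := by
      intro h2
      rw [h2] at hodd
      exact absurd hodd (by decide)
    omega
  by_cases hA : AllReg Q M
  · left
    intro g hg
    exact h.semi_two D hA hg
  · right
    have hN := h.norml_of_not_allReg D hr hA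
    by_cases hq : 3 ≤ q
    · obtain ⟨u, hu0, hu, hfu⟩ := h.exists_full D (by omega) hq hN
      intro z hz
      exact h.full_all D hB hodd hr3 hex hu0 hu hfu hz
    · have hq2 : q = 2 := by have := two_le D.hF; omega
      subst hq2
      have hr3' : finrank F K ≠ 3 := fun h3 => hex ⟨h3, rfl⟩
      obtain ⟨e, he0, he, hall⟩ := h.exists_e_of_two' D hr hr3 (h.elam_two D hB hr hr3' hN)
      intro z hz e' he'
      exact h.FT_all D (by omega) le_rfl he0 he hall hz he'

end Two

end Cfsg.Agent.H930.ExtU
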