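import Cfsg.Agent.H930.PrmC

/-!
# The unitary torus of prime degree: the root property, the primes, the size
-/

set_option autoImplicit false
set_option linter.unusedSectionVars false

namespace Cfsg.Agent.H930.Prm

open Module Cfsg Cfsg.Geo
open scoped MatrixGroups Matrix
open Cfsg.Agent.LieClassical.HermBasic
open Cfsg.Agent.H918 (SUg mem_SUg mem_GU mem_specialLinear)
open Cfsg.Agent.H926.Cc

/-! ### Arithmetic -/

section Arith

variable {q n : ℕ}

/-- `(q + 1)^4 ≤ q^5 + 1` for `q ≥ 4`. -/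
theorem four_five (hq : 4 ≤ q) : (q + 1) ^ 4 ≤ q ^ 5 := by
  obtain ⟨t, rfl⟩ := Nat.exists_eq_add_of_le hq
  ring_nf
  nlinarith [Nat.zero_le t, Nat.zero_le (t^2), Nat.zero_le (t^3), Nat.zero_le (t^4), Nat.zero_le (t^5)]

theorem size (hn : Odd n) (hn5 : 5 ≤ n) (h : n ∣ q + 1) : n ^ 2 * n ≤ tn q n := by
  have hle : n ≤ q + 1 := Nat.le_of_dvd (by omega) h
  have hq : 4 ≤ q := by omega
  apply Nat.le_of_mul_le_mul_right _ (by omega : 0 < q + 1)
  rw [tn_mul hn]
  calc n ^ 2 * n * (q + 1) ≤ (q + 1) ^ 2 * (q + 1) * (q + 1) := by gcongr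
    _ = (q + 1) ^ 4 := by ring
    _ ≤ q ^ 5 := four_five hq
    _ ≤ q ^ n := Nat.pow_le_pow_right (by omega) hn5
    _ ≤ q ^ n + 1 := by omega

/-- The torus is not scalar. -/
theorem gcd_lt_tn (hq : 2 ≤ q) (hn : Odd n) (hn5 : 3 ≤ n) (hex : ¬ (n = 3 ∧ q = 2)) : Nat.gcd n (q + 1) < tn q n := by
  have h1 : Nat.gcd n (q + 1) ≤ q + 1 := Nat.gcd_le_right _ (by omega)
  apply lt_of_le_of_lt h1
  apply Nat.lt_of_mul_lt_mul_right (a := q + 1)
  rw [tn_mul hn]
  rcases Nat.lt_or_ge q 3 with h | h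
  · have : q = 2 := by omega
    subst this
    have : 5 ≤ n := by
      rcases Nat.lt_or_ge n 5 with h' | h'
      · exfalso
        have : n = 3 ∨ n = 4 := by omega
        rcases this with rfl | rfl
        · exact hex ⟨rfl, rfl⟩
        · exact absurd hn (by decide)
      · exact h'
    calc (2 + 1) * (2 + 1) < 2 ^ 5 := by norm_num
      _ ≤ 2 ^ n := Nat.pow_le_pow_right (by norm_num) this
      _ ≤ 2 ^ n + 1 := by omega
  · calc (q + 1) * (q + 1) ≤ q ^ 3 := by nlinarith
      _ ≤ q ^ n := Nat.pow_le_pow_right (by omega) hn5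
      _ < q ^ n + 1 := by omega

/-- The primes of the torus. -/
theorem prime_of_dvd {s : ℕ} (hn : Odd n) (hnp : n.Prime) (hs : s.Prime) (h : s ∣ tn q n) :
    s = n ∨ s ≡ 1 [MOD 2 * n] := by
  have hsQ : s ∣ q ^ n + 1 := by
    rw [← tn_mul hn]
    exact Dvd.dvd.mul_right h _
  have : Fact s.Prime := ⟨hs⟩
  have hq0 : (q : ZMod s) ^ n = -1 := by
    have h1 : ((q ^ n + 1 : ℕ) : ZMod s) = 0 := (ZMod.natCast_eq_zero_iff _ _).2 hsQ
    push_cast at h1
    exact eq_neg_of_add_eq_zero_left h1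
  have hqne : (q : ZMod s) ≠ 0 := by
    intro h0
    rw [h0, zero_pow hnp.ne_zero] at hq0
    exact neg_ne_zero.2 one_ne_zero hq0.symm
  by_cases h2 : s ∣ q + 1
  · left
    have h3 : s ∣ Nat.gcd n (q + 1) := by
      rw [← gcd_tn hn]
      exact Nat.dvd_gcd h h2
    exact (Nat.prime_dvd_prime_iff_eq hs hnp).1 (h3.trans (Nat.gcd_dvd_left _ _))
  · right
    have h2s : s ≠ 2 := by
      rintro rfl
      -- `tn` is odd
      apply h2
      have h3 : 2 ∣ q ^ n + 1 := hsQ
      have h4 : ¬ 2 ∣ q := by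
        intro h5
        have h6 : 2 ∣ q ^ n := Dvd.dvd.pow h5 hnp.ne_zero
        omega
      omega
    have hord : orderOf (q : ZMod s) = 2 * n := by
      have h3 : orderOf (q : ZMod s) ∣ 2 * n := by
        rw [orderOf_dvd_iff_pow_eq_one, mul_comm, pow_mul, hq0]
        norm_num
      have hne1 : (-1 : ZMod s) ≠ 1 := by
        have : Fact (2 < s) := ⟨lt_of_le_of_ne hs.two_le (Ne.symm h2s)⟩
        exact ZMod.neg_one_ne_one
      have h4 : ¬ orderOf (q : ZMod s) ∣ n := by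
        intro h5
        rw [orderOf_dvd_iff_pow_eq_one, hq0] at h5
        exact hne1 h5
      have h5 : ¬ orderOf (q : ZMod s) ∣ 2 := by
        intro h6
        rw [orderOf_dvd_iff_pow_eq_one] at h6
        have h7 : ((q : ZMod s) - 1) * ((q : ZMod s) + 1) = 0 := by
          ring_nf
          rw [h6]
          ring
        rcases mul_eq_zero.1 h7 with h8 | h8
        · have h9 : (q : ZMod s) = 1 := sub_eq_zero.1 h8
          rw [h9, one_pow] at hq0
          exact hne1 hq0.symm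
        · apply h2
          rw [← ZMod.natCast_eq_zero_iff]
          push_cast
          exact h8
      -- divisors of `2 n`
      obtain ⟨a, b, ha, hb, hab⟩ := exists_dvd_and_dvd_of_dvd_mul h3
      have ha' : a = 1 ∨ a = 2 := (Nat.dvd_prime Nat.prime_two).1 ha
      have hb' : b = 1 ∨ b = n := (Nat.dvd_prime hnp).1 hb
      rcases ha' with rfl | rfl
      · exfalso; apply h4; rw [hab, one_mul]; exact hb
      · rcases hb' with rfl | rfl
        · exfalso; apply h5; rw [hab, mul_one]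
        · exact hab
    have h6 : 2 * n ∣ s - 1 := by
      rw [← hord]
      exact ZMod.orderOf_dvd_card_sub_one hqne
    exact ((Nat.modEq_iff_dvd' hs.one_le).2 h6).symm

theorem lt_of_mod {s : ℕ} (hs : s.Prime) (hnp : n.Prime) (h : s ≡ 1 [MOD 2 * n]) : n < s := by
  have h1 := (Nat.modEq_iff_dvd' hs.one_le).1 h.symm
  have h2 := Nat.le_of_dvd (by have := hs.two_le; omega) h1
  have := hnp.two_le
  omega

end Arith

variable {F : Type*} [Field F] [Fintype F] {E : Type*} [Field E] [Fintype E] [Algebra F E] {n q : ℕ}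

variable {φ : E →ₐ[F] Matrix (Fin n) (Fin n) F} (U : UT q φ) {L : Subgroup (GL (Fin n) F)} (O : Over q φ L)
include U O

theorem UT.root : RootProp φ L := by
  intro g hg a hga hc
  rw [Fintype.card_fin] at hc
  have hdet : (g : Matrix (Fin n) (Fin n) F).det = 1 := by
    have := O.ge hg
    rw [mem_SUg] at this
    exact this.2
  rw [hga, det_phi φ (by rw [U.fr, Fintype.card_fin])] at hdet
  apply scalar_of_norm_one
  · rw [U.fr]; exact U.hn
  · rw [U.fr]; exact U.hodd
  · exact hdet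
  · rw [U.fr]; exact hc

theorem UT.exists_ne (hex : ¬ (n = 3 ∧ q = 2)) :
    ∃ g ∈ L, ∃ a : E, (g : Matrix (Fin n) (Fin n) F) = φ a ∧ ∀ z : F, a ≠ algebraMap F E z := by
  have := U.ne
  by_contra hcon
  push Not at hcon
  have h1 : Cs φ L ≤ Zs L := by
    rintro g ⟨a, ha⟩
    obtain ⟨z, hz⟩ := hcon g g.2 a ha
    exact (mem_Zs_iff_of_eq ha).2 ⟨z, hz⟩
  have h2 := Nat.card_le_card_of_injective _ (Subgroup.inclusion_injective h1)
  rw [U.card_Cs O, U.card_Zs O] at h2
  have h3 : 3 ≤ n := by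
    have h4 := U.hn.two_le
    have h5 := U.hodd
    rcases Nat.lt_or_ge n 3 with h | h
    · have : n = 2 := by omega
      rw [this] at h5
      exact absurd h5 (by decide)
    · exact h
  have := gcd_lt_tn U.q2 U.hodd h3 hex
  omega

variable [Nonempty (Fin n)]

/-- The primes of the torus modulo scalars are `≡ 1 mod 2n`. -/
theorem UT.prime_mod {s : ℕ} (hs : s.Prime) (h : s ∣ Nat.card (Dq φ L)) : s ≡ 1 [MOD 2 * n] := by
  have h1 : s ∣ tn q n := by
    rw [← U.card_Dq_mul O]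
    exact Dvd.dvd.mul_right h _
  rcases prime_of_dvd U.hodd U.hn hs h1 with h2 | h2
  · exfalso
    subst h2
    have : Fact s.Prime := ⟨hs⟩
    obtain ⟨d, hd⟩ := exists_prime_orderOf_dvd_card' s h
    obtain ⟨c, ⟨a, hca⟩, hcd⟩ := d.2
    have h3 : d ^ s = 1 := orderOf_dvd_iff_pow_eq_one.1 (dvd_of_eq hd)
    have h4 : QuotientGroup.mk' (Zs L) (c ^ s) = 1 := by
      rw [map_pow, hcd]
      exact congrArg Subtype.val h3
    have h5 : c ^ s ∈ Zs L := (QuotientGroup.eq_one_iff _).1 h4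
    have h6 : (((c ^ s : L) : GL (Fin s) F) : Matrix (Fin s) (Fin s) F) = φ (a ^ s) := by
      push_cast
      rw [hca, map_pow]
    obtain ⟨z, hz⟩ := (mem_Zs_iff_of_eq h6).1 h5
    obtain ⟨z, hz⟩ := U.root O _ c.2 a hca ⟨z, by rw [Fintype.card_fin]; exact hz⟩
    have h7 : c ∈ Zs L := (mem_Zs_iff_of_eq hca).2 ⟨z, hz⟩
    have h8 : (d : Tq L) = 1 := by
      rw [← hcd]
      exact (QuotientGroup.eq_one_iff _).2 h7
    have h9 : d = 1 := Subtype.ext h8
    rw [h9, orderOf_one] at hd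
    exact hs.one_lt.ne hd
  · exact h2

theorem UT.lt_of_prime {s : ℕ} (hs : s.Prime) (h : s ∣ Nat.card (Dq φ L)) : Fintype.card (Fin n) < s := by
  rw [Fintype.card_fin]
  exact lt_of_mod hs U.hn (U.prime_mod O hs h)

theorem UT.bot_or (hn5 : 5 ≤ n) : Zs L = ⊥ ∨ Fintype.card (Fin n) ^ 2 ≤ Nat.card (Dq φ L) := by
  rw [Fintype.card_fin]
  rcases (Nat.dvd_prime U.hn).1 (Nat.gcd_dvd_left n (q + 1)) with h | h
  · left
    have h1 := U.card_Zs O
    rw [h] at h1
    exact Subgroup.card_eq_one.1 h1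
  · right
    have h1 : n ∣ q + 1 := by
      rw [← h]
      exact Nat.gcd_dvd_right _ _
    have h2 := size U.hodd hn5 h1
    rw [← U.card_Dq_mul O, h] at h2
    exact Nat.le_of_mul_le_mul_right h2 U.hn.pos

end Cfsg.Agent.H930.Prm
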