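import Cfsg.Agent.H930.PrmF
import Cfsg.Agent.H192.SingerNum
import Cfsg.Agent.H343.Arith
import Cfsg.Agent.S0278
import Cfsg.Agent.H960.Card81

/-!
# The normaliser of an adjoint-closed field of degree `n ≥ 5` prime in `SU_n(q)`: numerical data
-/

set_option autoImplicit false
set_option linter.unusedSectionVars false

namespace Cfsg.Agent.H930.Prm

open Module Cfsg Cfsg.Geo
open scoped MatrixGroups Matrix
open Cfsg.Agent.LieClassical.HermBasic
open Cfsg.Agent.H918 (SUg mem_SUg mem_GU mem_specialLinear)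
open Cfsg.Agent.H926.Cc
open Cfsg.Agent.OrdDiv (prU)
open Cfsg.Agent.H192.Singer (SUNum)

/-! ### The index of the normaliser of a CC subgroup -/

section CC

variable {G : Type*} [Group G] [Finite G] {D : Subgroup G}

/-- `|G| ≥ n |D| (|D| + 1)`. -/
theorem card_ge (h : CC D) {n : ℕ} (hrel : D.relIndex (Subgroup.normalizer (D : Set G)) = n)
    (hcop : (Nat.card D).Coprime n) (hnn : ¬ D.Normal) : n * Nat.card D * (Nat.card D + 1) ≤ Nat.card G := by
  set N : Subgroup G := Subgroup.normalizer (D : Set G) with hN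
  have hDN : D ≤ N := Subgroup.le_normalizer
  have hcardN : Nat.card N = n * Nat.card D := by
    have h1 := Subgroup.card_mul_index (D.subgroupOf N)
    rw [Nat.card_congr (Subgroup.subgroupOfEquivOfLe hDN).toEquiv] at h1
    rw [← h1, ← hrel, mul_comm]
    rfl
  obtain ⟨g, hg⟩ : ∃ g, g ∉ N := by
    by_contra hcon
    push Not at hcon
    apply hnn
    rw [← Subgroup.normalizer_eq_top_iff, eq_top_iff]
    intro x _
    exact hcon x
  -- elements of `N` of order dividing `|D|` are in `D`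
  have hmem : ∀ m ∈ N, m ^ Nat.card D = 1 → m ∈ D := by
    intro m hm hmD
    have hnorm : (D.subgroupOf N).Normal := by
      rw [hN]; exact Subgroup.normal_in_normalizer
    have h1 : m ^ n ∈ D := by
      have h2 := Subgroup.pow_index_mem (D.subgroupOf N) (⟨m, hm⟩ : N)
      rw [Subgroup.mem_subgroupOf] at h2
      have h3 : (D.subgroupOf N).index = n := hrel
      rw [h3] at h2
      exact h2
    have hbz := Nat.gcd_eq_gcd_ab (Nat.card D) n
    rw [hcop.gcd_eq_one] at hbz
    have h2 : m = (m ^ (Nat.card D : ℤ)) ^ (Nat.gcdA (Nat.card D) n) * (m ^ (n : ℤ)) ^ (Nat.gcdB (Nat.card D) n) := by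
      rw [← zpow_mul, ← zpow_mul, ← zpow_add, ← hbz]
      simp
    rw [h2, zpow_natCast, hmD, one_zpow, one_mul, zpow_natCast]
    exact D.zpow_mem h1 _
  have key : ∀ y ∈ D, g⁻¹ * y * g ∈ N → y = 1 := by
    intro y hy hyN
    by_contra hy1
    have h1 : (g⁻¹ * y * g) ^ Nat.card D = 1 := by
      have h2 : (g⁻¹ * y * g) ^ Nat.card D = g⁻¹ * y ^ Nat.card D * g := by
        have := conj_pow (i := Nat.card D) (a := g⁻¹) (b := y)
        rw [inv_inv] at this
        exact this
      have h3 : y ^ Nat.card D = 1 := by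
        have := pow_card_eq_one' (x := (⟨y, hy⟩ : D))
        exact congrArg Subtype.val this
      rw [h2, h3, mul_one, inv_mul_cancel]
    have h2 := hmem _ hyN h1
    have h3 : g * (g⁻¹ * y * g) * g⁻¹ = y := by group
    have h4 : g⁻¹ * y * g ≠ 1 := by
      intro h5
      rw [h5] at h3
      apply hy1
      rw [← h3]
      group
    exact hg (h.mem_normalizer_of_conj h2 h4 (by rw [h3]; exact hy))
  let f : N ⊕ (D × N) → G := Sum.elim (fun x => (x : G)) (fun p => (p.1 : G) * g * (p.2 : G))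
  have hf : Function.Injective f := by
    rintro (x | ⟨d, x⟩) (y | ⟨d', y⟩) hxy
    · have : (x : G) = y := hxy
      rw [Subtype.ext this]
    · exfalso
      have h1 : (x : G) = (d' : G) * g * (y : G) := hxy
      apply hg
      have h2 : g = (d' : G)⁻¹ * (x : G) * (y : G)⁻¹ := by rw [h1]; group
      rw [h2]
      exact N.mul_mem (N.mul_mem (N.inv_mem (hDN d'.2)) x.2) (N.inv_mem y.2)
    · exfalso
      have h1 : (d : G) * g * (x : G) = y := hxy
      apply hg
      have h2 : g = (d : G)⁻¹ * (y : G) * (x : G)⁻¹ := by rw [← h1]; group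
      rw [h2]
      exact N.mul_mem (N.mul_mem (N.inv_mem (hDN d.2)) y.2) (N.inv_mem x.2)
    · have h1 : (d : G) * g * (x : G) = (d' : G) * g * (y : G) := hxy
      have h2 : g⁻¹ * ((d' : G)⁻¹ * (d : G)) * g = (y : G) * (x : G)⁻¹ := by
        calc g⁻¹ * ((d' : G)⁻¹ * (d : G)) * g = g⁻¹ * (d' : G)⁻¹ * ((d : G) * g * (x : G)) * (x : G)⁻¹ := by group
          _ = g⁻¹ * (d' : G)⁻¹ * ((d' : G) * g * (y : G)) * (x : G)⁻¹ := by rw [h1]
          _ = _ := by group
      have h3 := key _ (D.mul_mem (D.inv_mem d'.2) d.2) (by rw [h2]; exact N.mul_mem y.2 (N.inv_mem x.2))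
      have h4 : d = d' := Subtype.ext (inv_mul_eq_one.1 h3).symm
      rw [h3, mul_one, inv_mul_cancel] at h2
      have h5 : x = y := Subtype.ext (mul_inv_eq_one.1 h2.symm).symm
      rw [h4, h5]
  have h1 := Nat.card_le_card_of_injective f hf
  rw [Nat.card_sum, Nat.card_prod, hcardN] at h1
  nlinarith [h1]

end CC

/-! ### The data -/

universe u

variable {F : Type u} [Field F] [Fintype F]

/-- The data of a proper overgroup. -/
structure SUData (q n : ℕ) (L : Subgroup (GL (Fin n) F)) : Prop where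
  simple : IsSimpleGroup (Tq L)
  nonab : ∃ x y : Tq L, x * y ≠ y * x
  card : Nat.card L = Nat.card (Tq L) * Nat.gcd n (q + 1)
  num : ∃ d, SUNum n q (Nat.card (Tq L)) d ∧ n * d * (d + 1) ≤ Nat.card (Tq L)
  central : Zs L ≤ Subgroup.center L

theorem card_SUg_mul {n q : ℕ} (hF : Fintype.card F = q ^ 2) (hn : 1 ≤ n) :
    Nat.card (SUg n F q) * (q + 1) = q ^ (n * (n - 1) / 2) * prU q n := by
  have h1 := Cfsg.Agent.S0278.result hF n hn
  rw [Cfsg.Agent.H343.prU_eq, ← h1, mul_comm]
  congr 1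
  exact Cfsg.Agent.H960.card_su_eq

theorem Zs_central {n : ℕ} (L : Subgroup (GL (Fin n) F)) : Zs L ≤ Subgroup.center L := by
  intro z hz
  obtain ⟨c, hc⟩ := mem_Zs.1 hz
  rw [Subgroup.mem_center_iff]
  intro g
  apply Subtype.ext
  apply Units.ext
  show ((g : GL (Fin n) F) : Matrix (Fin n) (Fin n) F) * ((z : GL (Fin n) F) : Matrix (Fin n) (Fin n) F) =
    ((z : GL (Fin n) F) : Matrix (Fin n) (Fin n) F) * ((g : GL (Fin n) F) : Matrix (Fin n) (Fin n) F)
  rw [hc, Matrix.mul_smul, Matrix.smul_mul, mul_one, one_mul]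

theorem su_data {n q : ℕ} (hF : Fintype.card F = q ^ 2) (hn : n.Prime) (h5 : 5 ≤ n)
    {K : Subalgebra F (Matrix (Fin n) (Fin n) F)} (hK : IsFieldSubalgebra n K)
    (hadj : IsAdjointClosedFor (hermForm n F q) K) {L : Subgroup (GL (Fin n) F)}
    (hN : subalgebraNormalizer K ⊓ SUg n F q ≤ L) (hL : L ≤ SUg n F q) :
    L ≤ subalgebraNormalizer K ∨ SUData q n L := by
  have hodd : Odd n := hn.odd_of_ne_two (by omega)
  obtain ⟨E, _, _, _, φ, U, rfl⟩ := exists_UT hF hn hodd hK hadj
  have hne := U.ne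
  have O : Over q φ L := ⟨hN, hL⟩
  rcases U.alternative O h5 with h | ⟨h1, h2, h3, h4, hd, h6, h7⟩
  · exact Or.inl h
  · right
    have hfin : Finite (Tq L) := inferInstance
    have hcop : (Nat.card (Dq φ L)).Coprime n := by
      rw [Nat.coprime_comm, hn.coprime_iff_not_dvd]
      intro hdvd
      have := U.lt_of_prime O hn hdvd
      rw [Fintype.card_fin] at this
      exact lt_irrefl _ this
    have hnn : ¬ (Dq φ L).Normal := by
      intro hnorm
      have hbt := h1.eq_bot_or_eq_top_of_normal _ hnorm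
      rcases hbt with h8 | h8
      · exact h3.ne_bot h8
      · obtain ⟨x, y, hxy⟩ := h2
        exact hxy (h3.comm x (by rw [h8]; exact Subgroup.mem_top _) y (by rw [h8]; exact Subgroup.mem_top _))
    refine ⟨h1, h2, h7, ⟨Nat.card (Dq φ L), ⟨hn, h5, ?_, hd, Subgroup.card_subgroup_dvd_card _, ?_⟩,
      card_ge h3 h6 hcop hnn⟩, Zs_central L⟩
    · have h8 : IsPrimePow (q ^ 2) := by
        rw [← hF]
        exact FiniteField.isPrimePow_card F
      exact (isPrimePow_pow_iff (by norm_num)).1 h8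
    · rw [← card_SUg_mul hF hn.one_lt.le]
      have h8 : Nat.card L ∣ Nat.card (SUg n F q) := Subgroup.card_dvd_of_le hL
      obtain ⟨t, ht⟩ := h8
      refine ⟨t, ?_⟩
      rw [ht, h7]
      ring

/-- **Maximality** from the case analysis. -/
theorem isMaximalIn_of {n q : ℕ} (hF : Fintype.card F = q ^ 2) (hn : n.Prime) (h5 : 5 ≤ n)
    {K : Subalgebra F (Matrix (Fin n) (Fin n) F)} (hK : IsFieldSubalgebra n K)
    (hadj : IsAdjointClosedFor (hermForm n F q) K)
    (hII : ∀ L : Subgroup (GL (Fin n) F), subalgebraNormalizer K ⊓ SUg n F q ≤ L →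
      L ≤ SUg n F q → SUData q n L →
      Nat.card (Tq L) * ((q + 1) * Nat.gcd n (q + 1)) = q ^ (n * (n - 1) / 2) * prU q n) :
    IsMaximalIn (SUg n F q) (subalgebraNormalizer K ⊓ SUg n F q) := by
  refine ⟨lt_of_le_of_ne inf_le_right fun heq => ?_, fun L hN hL => ?_⟩
  · exact Cfsg.Agent.H918.SUg_not_le_subalgebraNormalizer hF (by omega) (by omega) (by omega) hK
      (heq.symm.le.trans inf_le_left)
  · rcases su_data hF hn h5 hK hadj hN hL with h | h
    · exact Or.inl (le_antisymm (le_inf h hL) hN)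
    · right
      have h1 := hII L hN hL h
      have h2 : Nat.card L * (q + 1) = Nat.card (SUg n F q) * (q + 1) := by
        rw [card_SUg_mul hF hn.one_lt.le, ← h1, h.card]
        ring
      have h3 := Nat.eq_of_mul_eq_mul_right (by omega : 0 < q + 1) h2
      exact Subgroup.eq_of_le_of_card_ge hL h3.ge

end Cfsg.Agent.H930.Prm
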