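import Cfsg.Agent.H930.SixAut
import Cfsg.Agent.H871.DecompMax

/-!
# The six planes of `6.A₆` in dimension twelve (helper930)

* `dec` : the planes, `Fr6.isMDec`, `Fr6.mem_dec`;
* `Fr6.exists_t` : the element acting as `ρ(x)` on the plane `5` and trivially on the others;
* `kill` : no maximal subgroup of `K` with `¬ K ≤ Stab(dec)` and containing the element `t`.
-/

set_option autoImplicit false
set_option linter.unusedSectionVars false

namespace Cfsg.Agent.H930.Six

open Cfsg Cfsg.Geo Matrix Equiv Cfsg.Agent.H915.LD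
open scoped commutatorElement

universe u v

variable {ι : Type} [Fintype ι] [DecidableEq ι] {F : Type u} [Field F] {G : Type v} [Group G]
  {m : G →* GL ι F} {φ : G →* Perm (Fin 6)} {T : Matrix ι (Fin 2) F} {gs : Fin 6 → G}

theorem mK_id (g : G) : mK (RingHom.id F) m g = (m g : Matrix ι ι F) := rfl

/-- the six planes -/
def dec (m : G →* GL ι F) (T : Matrix ι (Fin 2) F) (gs : Fin 6 → G) (i : Fin 6) : Submodule F (ι → F) :=
  Submodule.span F (Set.range fun a : Fin 2 => bv (RingHom.id F) m T gs (i, a))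

theorem bv_mem (i : Fin 6) (a : Fin 2) : bv (RingHom.id F) m T gs (i, a) ∈ dec m T gs i :=
  Submodule.subset_span ⟨a, rfl⟩

theorem sum_mem_dec (i : Fin 6) (c : Fin 2 → F) : ∑ a, c a • bv (RingHom.id F) m T gs (i, a) ∈ dec m T gs i :=
  Submodule.sum_mem _ fun a _ => Submodule.smul_mem _ _ (bv_mem i a)

theorem Fr6.li (hT : Fr6 (RingHom.id F) m φ T gs) (h : Cov m φ) :
    LinearIndependent F (bv (RingHom.id F) m T gs) := by
  have h1 := (hT.basis h).linearIndependent
  have h2 : (⇑(hT.basis h)) = bv (RingHom.id F) m T gs := funext (hT.basis_apply h)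
  rwa [h2] at h1

theorem Fr6.isMDec (hT : Fr6 (RingHom.id F) m φ T gs) (h : Cov m φ) : IsMDecomposition 2 (dec m T gs) := by
  have hli := hT.li h
  have himg : ∀ i, dec m T gs i = Submodule.span F (bv (RingHom.id F) m T gs '' {x | x.1 = i}) := by
    intro i
    unfold dec
    congr 1
    ext v
    constructor
    · rintro ⟨a, rfl⟩
      exact ⟨(i, a), rfl, rfl⟩
    · rintro ⟨⟨i', a⟩, hi, rfl⟩
      have hi' : i' = i := hi
      subst hi'
      exact ⟨a, rfl⟩
  refine ⟨by norm_num, by norm_num, ?_, ?_, ?_⟩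
  · intro i
    have h1 : LinearIndependent F (fun a : Fin 2 => bv (RingHom.id F) m T gs (i, a)) :=
      hli.comp (fun a : Fin 2 => (i, a)) (fun a b hab => congrArg Prod.snd hab)
    rw [dec, finrank_span_eq_card h1, Fintype.card_fin]
  · rw [iSupIndep_def]
    intro i
    have h1 : ⨆ (j) (_ : j ≠ i), dec m T gs j ≤ Submodule.span F (bv (RingHom.id F) m T gs '' {x | x.1 ≠ i}) := by
      refine iSup_le fun j => iSup_le fun hj => ?_
      rw [himg]
      apply Submodule.span_mono
      apply Set.image_mono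
      intro x hx
      have hx' : x.1 = j := hx
      change x.1 ≠ i
      rw [hx']
      exact hj
    refine Disjoint.mono_right h1 ?_
    rw [himg]
    apply hli.disjoint_span_image
    rw [Set.disjoint_left]
    intro x hx hx'
    exact hx' hx
  · rw [eq_top_iff, ← hT.span h, Submodule.span_le]
    rintro _ ⟨⟨i, a⟩, rfl⟩
    exact Submodule.mem_iSup_of_mem i (bv_mem i a)

theorem Fr6.mem_dec (hT : Fr6 (RingHom.id F) m φ T gs) (h : Cov m φ) {g : GL ι F} (σ : Perm (Fin 6))
    (hg : ∀ i a, (g : Matrix ι ι F) *ᵥ bv (RingHom.id F) m T gs (i, a) ∈ dec m T gs (σ i)) :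
    g ∈ decompositionStabilizer (dec m T gs) := by
  refine ⟨σ, fun i => ?_⟩
  have hle : (dec m T gs i).map (Matrix.toLin' (g : Matrix ι ι F)) ≤ dec m T gs (σ i) := by
    rw [dec, Submodule.map_span, Submodule.span_le]
    rintro _ ⟨_, ⟨a, rfl⟩, rfl⟩
    rw [Matrix.toLin'_apply]
    exact hg i a
  apply Submodule.eq_of_le_of_finrank_eq hle
  have hinj : Function.Injective (Matrix.toLin' (g : Matrix ι ι F)) := by
    intro x y hxy
    rw [Matrix.toLin'_apply, Matrix.toLin'_apply] at hxy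
    have := congrArg (fun z => ((g⁻¹ : GL ι F) : Matrix ι ι F) *ᵥ z) hxy
    simpa [Matrix.mulVec_mulVec] using this
  rw [← (Submodule.equivMapOfInjective _ hinj (dec m T gs i)).finrank_eq, (hT.isMDec h).finrank_eq,
    (hT.isMDec h).finrank_eq]

theorem Fr6.act' (hT : Fr6 (RingHom.id F) m φ T gs) (g : G) (i : Fin 6) :
    ∃ R : Matrix (Fin 2) (Fin 2) F, ∀ a, (m g : Matrix ι ι F) *ᵥ bv (RingHom.id F) m T gs (i, a) =
      ∑ c, R c a • bv (RingHom.id F) m T gs (φ g i, c) := hT.act g i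

theorem Fr6.mem_of (hT : Fr6 (RingHom.id F) m φ T gs) (h : Cov m φ) (g : G) {s : GL ι F} (hs : s ∈ scalars ι F) :
    m g * s ∈ decompositionStabilizer (dec m T gs) := by
  apply hT.mem_dec h (φ g)
  intro i a
  obtain ⟨c, hc⟩ := (mem_scalars_iff _).1 hs
  obtain ⟨R, hR⟩ := hT.act' g i
  rw [Units.val_mul, hc, Matrix.mul_smul, mul_one, Matrix.smul_mulVec, hR]
  exact Submodule.smul_mem _ _ (sum_mem_dec _ _)

/-- the element acting as `R` on the plane `5` and trivially on the others -/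
theorem Fr6.exists_t (hT : Fr6 (RingHom.id F) m φ T gs) (h : Cov m φ) {R : Matrix (Fin 2) (Fin 2) F} (hR : R.det = 1) :
    ∃ t : GL ι F, t ∈ specialLinear ι F ∧ (∀ a, (t : Matrix ι ι F) *ᵥ bv (RingHom.id F) m T gs (5, a) =
      ∑ c, R c a • bv (RingHom.id F) m T gs (5, c)) ∧
      ∀ i a, i ≠ 5 → (t : Matrix ι ι F) *ᵥ bv (RingHom.id F) m T gs (i, a) = bv (RingHom.id F) m T gs (i, a) := by
  classical
  obtain ⟨B, hB⟩ : ∃ B, B = (hT.basis h).reindex (Equiv.prodComm (Fin 6) (Fin 2)) := ⟨_, rfl⟩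
  have hBa : ∀ i a, B (a, i) = bv (RingHom.id F) m T gs (i, a) := by
    intro i a
    rw [hB, Module.Basis.reindex_apply, Equiv.prodComm_symm, Equiv.prodComm_apply, Prod.swap_prod_mk, hT.basis_apply]
  obtain ⟨N, hN⟩ : ∃ N : Matrix (Fin 2 × Fin 6) (Fin 2 × Fin 6) F,
    N = Matrix.blockDiagonal (fun k : Fin 6 => if k = 5 then R else 1) := ⟨_, rfl⟩
  have hdet : N.det = 1 := by
    rw [hN, Matrix.det_blockDiagonal]
    apply Finset.prod_eq_one
    intro k _
    split_ifs
    · exact hR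
    · exact Matrix.det_one
  obtain ⟨L, hL⟩ : ∃ L, L = LinearMap.toMatrix' (Matrix.toLin B B N) := ⟨_, rfl⟩
  have hLdet : L.det = 1 := by
    rw [hL, LinearMap.det_toMatrix', LinearMap.det_toLin, hdet]
  have hLv : ∀ k a, L *ᵥ B (a, k) = ∑ c, (if k = 5 then R else 1) c a • B (c, k) := by
    intro k a
    rw [hL, ← Matrix.toLin'_apply, Matrix.toLin'_toMatrix', Matrix.toLin_self, Fintype.sum_prod_type]
    refine Finset.sum_congr rfl fun c _ => ?_
    rw [Finset.sum_eq_single k]
    · rw [hN, Matrix.blockDiagonal_apply, if_pos rfl]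
    · intro l _ hl
      rw [hN, Matrix.blockDiagonal_apply, if_neg hl, zero_smul]
    · intro hk; exact absurd (Finset.mem_univ _) hk
  refine ⟨Matrix.GeneralLinearGroup.mk'' L (by rw [hLdet]; exact isUnit_one), ?_, ?_, ?_⟩
  · rw [specialLinear, MonoidHom.mem_ker]
    apply Units.ext
    exact hLdet
  · intro a
    rw [← hBa]
    refine (hLv 5 a).trans ?_
    refine Finset.sum_congr rfl fun c _ => ?_
    rw [if_pos rfl, hBa]
  · intro i a hi
    rw [← hBa]
    refine (hLv i a).trans ?_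
    rw [if_neg hi, Finset.sum_eq_single a]
    · rw [Matrix.one_apply_eq, one_smul]
    · intro c _ hc
      rw [Matrix.one_apply_ne hc, zero_smul]
    · intro ha; exact absurd (Finset.mem_univ _) ha

theorem fix_five : ∀ s : Perm (Fin 6), (∀ k, k ≠ 5 → s k = k) → s = 1 := by decide +kernel

/-- the element `t` is not in `P` times scalars -/
theorem Fr6.not_mem (hT : Fr6 (RingHom.id F) m φ T gs) (h : Cov m φ) {R : Matrix (Fin 2) (Fin 2) F} (hR1 : R ≠ 1)
    {t : GL ι F} (h5 : ∀ a, (t : Matrix ι ι F) *ᵥ bv (RingHom.id F) m T gs (5, a) =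
      ∑ c, R c a • bv (RingHom.id F) m T gs (5, c))
    (hi : ∀ i a, i ≠ 5 → (t : Matrix ι ι F) *ᵥ bv (RingHom.id F) m T gs (i, a) = bv (RingHom.id F) m T gs (i, a))
    (g : G) : (m g)⁻¹ * t ∉ scalars ι F := by
  intro hs
  obtain ⟨c, hc⟩ := (mem_scalars_iff _).1 hs
  have ht : (t : Matrix ι ι F) = (c : F) • (m g : Matrix ι ι F) := by
    have e : t = m g * ((m g)⁻¹ * t) := by group
    rw [e, Units.val_mul, hc, Matrix.mul_smul, mul_one]
  have hli := hT.li h
  have hφ : φ g = 1 := by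
    apply fix_five
    intro k hk
    by_contra hne
    obtain ⟨R', hR'⟩ := hT.act' g k
    have h1 := hi k 0 hk
    rw [ht, Matrix.smul_mulVec, hR'] at h1
    have h2 : bv (RingHom.id F) m T gs (k, 0) ∈ dec m T gs (φ g k) := by
      rw [← h1]
      exact Submodule.smul_mem _ _ (sum_mem_dec _ _)
    have h3 := (hT.isMDec h).indep.pairwiseDisjoint hne
    rw [Function.onFun, Submodule.disjoint_def] at h3
    exact hli.ne_zero (k, 0) (h3 _ h2 (bv_mem k 0))
  obtain ⟨c', hc'⟩ := h.scal hφ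
  rw [hc', smul_smul] at ht
  have h1 := hi 0 0 (by decide)
  rw [ht, Matrix.smul_mulVec, Matrix.one_mulVec] at h1
  have h2 : (c : F) * c' = 1 := by
    have h3 : ((c : F) * c' - 1) • bv (RingHom.id F) m T gs (0, 0) = 0 := by rw [sub_smul, h1, one_smul, sub_self]
    exact sub_eq_zero.1 ((smul_eq_zero.1 h3).resolve_right (hli.ne_zero (0, 0)))
  rw [h2, one_smul] at ht
  apply hR1
  have hli5 : LinearIndependent F (fun a : Fin 2 => bv (RingHom.id F) m T gs (5, a)) :=
    hli.comp (fun a : Fin 2 => ((5 : Fin 6), a)) (fun a b hab => congrArg Prod.snd hab)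
  ext c a
  have h3 := h5 a
  rw [ht, Matrix.one_mulVec] at h3
  have h4 : ∑ c, (R c a - (1 : Matrix (Fin 2) (Fin 2) F) c a) • bv (RingHom.id F) m T gs (5, c) = 0 := by
    have e : ∑ c, (1 : Matrix (Fin 2) (Fin 2) F) c a • bv (RingHom.id F) m T gs (5, c) =
        bv (RingHom.id F) m T gs (5, a) := by
      rw [Finset.sum_eq_single a]
      · rw [Matrix.one_apply_eq, one_smul]
      · intro c _ hc
        rw [Matrix.one_apply_ne hc, zero_smul]
      · intro ha; exact absurd (Finset.mem_univ _) ha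
    simp only [sub_smul]
    rw [Finset.sum_sub_distrib, ← h3, e, sub_self]
  exact sub_eq_zero.1 ((Fintype.linearIndependent_iff.1 hli5) _ h4 c)

/-- **The imprimitive kill.** -/
theorem kill {P H K : Subgroup (GL ι F)} (hH : IsMaximalIn K H) {φ : P →* Perm (Fin 6)} (h : Cov P.subtype φ)
    {gs : Fin 6 → P} (hT : Fr6 (RingHom.id F) P.subtype φ T gs)
    (hle : ∀ g ∈ H, ∃ x ∈ P, x⁻¹ * g ∈ scalars ι F)
    (hK : ¬ K ≤ decompositionStabilizer (dec P.subtype T gs))
    {R : Matrix (Fin 2) (Fin 2) F} (hR1 : R ≠ 1) {t : GL ι F} (htK : t ∈ K)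
    (h5 : ∀ a, (t : Matrix ι ι F) *ᵥ bv (RingHom.id F) P.subtype T gs (5, a) =
      ∑ c, R c a • bv (RingHom.id F) P.subtype T gs (5, c))
    (hi : ∀ i a, i ≠ 5 → (t : Matrix ι ι F) *ᵥ bv (RingHom.id F) P.subtype T gs (i, a) =
      bv (RingHom.id F) P.subtype T gs (i, a)) : False := by
  have h1 : H ≤ decompositionStabilizer (dec P.subtype T gs) ⊓ K := by
    intro g hg
    refine ⟨?_, hH.1.le hg⟩
    obtain ⟨x, hx, hs⟩ := hle g hg
    have e : g = P.subtype ⟨x, hx⟩ * (x⁻¹ * g) := by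
      change g = x * (x⁻¹ * g)
      group
    rw [e]
    exact hT.mem_of h _ hs
  have ht : t ∈ decompositionStabilizer (dec P.subtype T gs) := by
    apply hT.mem_dec h 1
    intro i a
    by_cases h0 : i = 5
    · subst h0
      rw [h5]
      exact sum_mem_dec _ _
    · rw [hi i a h0]
      exact bv_mem i a
  rcases hH.2 _ h1 inf_le_right with h2 | h2
  · have h3 : t ∈ H := by rw [← h2]; exact ⟨ht, htK⟩
    obtain ⟨x, hx, hs⟩ := hle t h3
    exact hT.not_mem h hR1 h5 hi ⟨x, hx⟩ hs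
  · exact hK (by rw [← h2]; exact inf_le_left)

end Cfsg.Agent.H930.Six
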