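import Cfsg.Agent.H930.SixSum
import Cfsg.Agent.H464.L2Cover
import Cfsg.Agent.H905.PCover
import Cfsg.Agent.H60.CrossA
import Cfsg.Agent.S0253

/-!
# Covers of `A₆`: the subgroup `SL₂(5)` over the stabiliser of a point (helper930)

* `st5` : the stabiliser of `5` in `A₆`; `alt5_equiv`;
* `Cov.exists_theta` : `θ : SL₂(5) →* G` over `st5` if `5 ∤ |ker φ|`.
-/

set_option autoImplicit false
set_option linter.unusedSectionVars false

namespace Cfsg.Agent.H930.Six

open Cfsg Cfsg.Geo Matrix Equiv Cfsg.Agent.H915.LD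
open scoped commutatorElement

universe u v

variable {ι : Type} [Fintype ι] [DecidableEq ι] {F : Type u} [Field F] {G : Type v} [Group G]
  {m : G →* GL ι F} {φ : G →* Perm (Fin 6)}

/-- the stabiliser of `5` in `A₆` -/
def st5 : Subgroup (Perm (Fin 6)) where
  carrier := {s | Perm.sign s = 1 ∧ s 5 = 5}
  mul_mem' := by
    rintro a b ⟨ha, ha'⟩ ⟨hb, hb'⟩
    refine ⟨by rw [map_mul, ha, hb, one_mul], ?_⟩
    rw [Perm.mul_apply, hb', ha']
  one_mem' := ⟨map_one _, rfl⟩
  inv_mem' := by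
    rintro a ⟨ha, ha'⟩
    refine ⟨by rw [map_inv, ha, inv_one], ?_⟩
    rw [Perm.inv_eq_iff_eq, ha']

theorem mem_st5 {s : Perm (Fin 6)} : s ∈ st5 ↔ Perm.sign s = 1 ∧ s 5 = 5 := Iff.rfl

/-- the points `≠ 5` -/
def e5 : Fin 5 ≃ {x : Fin 6 // x ≠ 5} := finSuccAboveEquiv (5 : Fin 6)

/-- extension by a fixed point -/
def j5 : Perm (Fin 5) →* Perm (Fin 6) := Perm.extendDomainHom e5

theorem j5_apply_five (s : Perm (Fin 5)) : j5 s 5 = 5 := by
  change s.extendDomain e5 5 = 5
  exact Perm.extendDomain_apply_not_subtype _ _ (by simp)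

theorem sign_j5 (s : Perm (Fin 5)) : Perm.sign (j5 s) = Perm.sign s := Perm.sign_extendDomain _ _

theorem j5_injective : Function.Injective j5 := Perm.extendDomainHom_injective e5

theorem exists_j5 {s : Perm (Fin 6)} (hs : s 5 = 5) : ∃ t, j5 t = s := by
  have hs' : ∀ x : Fin 6, x ≠ 5 ↔ s x ≠ 5 := by
    intro x
    rw [not_iff_not]
    constructor
    · rintro rfl; exact hs
    · intro h; exact s.injective (h.trans hs.symm)
  refine ⟨(e5.permCongr).symm (s.subtypePerm fun x => (hs' x).symm), ?_⟩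
  refine Equiv.ext fun x => ?_
  by_cases hx : x = 5
  · subst hx
    rw [j5_apply_five, hs]
  · change ((e5.permCongr).symm (s.subtypePerm fun x => (hs' x).symm)).extendDomain e5 x = s x
    rw [Perm.extendDomain_apply_subtype (p := fun x : Fin 6 => x ≠ 5) _ _ hx]
    simp [Equiv.permCongr]

/-- `A₅` and the point stabiliser -/
theorem alt5_equiv : Nonempty (alternatingGroup (Fin 5) ≃* st5) := by
  let f : alternatingGroup (Fin 5) →* st5 :=
    { toFun := fun s => ⟨j5 s, by rw [mem_st5, sign_j5]; exact ⟨s.2, j5_apply_five _⟩⟩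
      map_one' := Subtype.ext (map_one j5)
      map_mul' := fun a b => Subtype.ext (map_mul j5 _ _) }
  refine ⟨MulEquiv.ofBijective f ⟨?_, ?_⟩⟩
  · intro a b hab
    exact Subtype.ext (j5_injective (congrArg Subtype.val hab))
  · rintro ⟨s, hs, hs5⟩
    obtain ⟨t, ht⟩ := exists_j5 hs5
    refine ⟨⟨t, ?_⟩, Subtype.ext ht⟩
    rw [Perm.mem_alternatingGroup, ← sign_j5, ht, hs]

theorem center_sl5 (x : SpecialLinearGroup (Fin 2) (ZMod 5)) :
    x ∈ Subgroup.center (SpecialLinearGroup (Fin 2) (ZMod 5)) ↔ x = 1 ∨ x = -1 := by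
  have : Fact (Nat.Prime 5) := ⟨by norm_num⟩
  rw [Matrix.SpecialLinearGroup.mem_center_iff]
  constructor
  · rintro ⟨r, hr, hr'⟩
    rw [Fintype.card_fin, sq] at hr
    rcases mul_self_eq_one_iff.1 hr with h2 | h2
    · left
      apply Subtype.ext
      rw [← hr', h2, map_one]
      rfl
    · right
      apply Subtype.ext
      rw [← hr', h2, map_neg, map_one]
      rfl
  · rintro (rfl | rfl)
    · exact ⟨1, one_pow _, by rw [map_one]; rfl⟩
    · refine ⟨-1, by rw [Fintype.card_fin, sq, neg_one_mul, neg_neg], ?_⟩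
      rw [map_neg, map_one]
      rfl

/-- a surjection `SL₂(5) → st5` with kernel the centre -/
theorem exists_sl5 : ∃ ψ : SpecialLinearGroup (Fin 2) (ZMod 5) →* st5, Function.Surjective ψ ∧
    ψ.ker = Subgroup.center (SpecialLinearGroup (Fin 2) (ZMod 5)) := by
  have : Fact (Nat.Prime 5) := ⟨by norm_num⟩
  obtain ⟨f⟩ := Cfsg.Agent.S0253.result (F := ZMod 5) (ZMod.card 5)
  obtain ⟨g⟩ := alt5_equiv
  let e : ProjectiveSpecialLinearGroup (Fin 2) (ZMod 5) ≃* st5 := f.trans g
  refine ⟨e.toMonoidHom.comp (QuotientGroup.mk' _), e.surjective.comp (QuotientGroup.mk'_surjective _), ?_⟩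
  refine Eq.trans ?_ (QuotientGroup.ker_mk' (Subgroup.center (SpecialLinearGroup (Fin 2) (ZMod 5))))
  ext x
  rw [MonoidHom.mem_ker, MonoidHom.mem_ker, MonoidHom.comp_apply]
  exact e.map_eq_one_iff

theorem commutator_st5 : commutator st5 = ⊤ := by
  have : Fact (Nat.Prime 5) := ⟨by norm_num⟩
  obtain ⟨ψ, hψ, -⟩ := exists_sl5
  have h1 := H464.Sl2.commutator_sl2 (K := ZMod 5) (by rw [ZMod.card]; norm_num)
  rw [commutator_def, ← Subgroup.map_top_of_surjective ψ hψ, ← Subgroup.map_commutator, ← commutator_def, h1]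

/-- **The subgroup `SL₂(5)` over the point stabiliser.** -/
theorem Cov.exists_theta [Finite G] (h : Cov m φ) (h5 : ¬ 5 ∣ Nat.card φ.ker) :
    ∃ θ : SpecialLinearGroup (Fin 2) (ZMod 5) →* G,
      (∀ x, φ (θ x) ∈ st5) ∧ (∀ s ∈ st5, ∃ x, φ (θ x) = s) ∧ (∀ x, φ (θ x) = 1 ↔ x = 1 ∨ x = -1) := by
  classical
  have hp5 : Fact (Nat.Prime 5) := ⟨by norm_num⟩
  obtain ⟨ψ, hψ, hψk⟩ := exists_sl5
  let L : Subgroup G := st5.comap φ
  let f : L →* st5 := (φ.comp L.subtype).codRestrict st5 fun x => x.2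
  have hf : Function.Surjective f := by
    rintro ⟨s, hs⟩
    obtain ⟨g, hg⟩ := h.surj (s := s) (Perm.mem_alternatingGroup.2 hs.1)
    exact ⟨⟨g, by rw [Subgroup.mem_comap, hg]; exact hs⟩, Subtype.ext hg⟩
  have hfk : f.ker ≤ Subgroup.center L := by
    intro x hx
    have h1 : φ x = 1 := congrArg Subtype.val (MonoidHom.mem_ker.1 hx)
    rw [Subgroup.mem_center_iff]
    intro y
    exact Subtype.ext (h.central h1 y).symm
  obtain ⟨hL1, hL2⟩ := H905.PCover.commutator_perfect commutator_st5 hf hfk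
  let f1 : commutator L →* st5 := f.comp (commutator L).subtype
  have hf1 : Function.Surjective f1 := by
    intro s
    have h1 : s ∈ (commutator L).map f := by rw [hL2]; trivial
    obtain ⟨x, hx, rfl⟩ := h1
    exact ⟨⟨x, hx⟩, rfl⟩
  have hf1k : f1.ker ≤ Subgroup.center (commutator L) := by
    intro x hx
    have h1 : (x : L) ∈ f.ker := hx
    rw [Subgroup.mem_center_iff]
    intro y
    exact Subtype.ext (Subgroup.mem_center_iff.1 (hfk h1) y)
  have hcop : (Nat.card f1.ker).Coprime 5 := by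
    have h1 : Nat.card f1.ker ∣ Nat.card φ.ker := by
      let i : f1.ker →* φ.ker :=
        { toFun := fun x => ⟨((x : commutator L) : L), by
            have h2 : ((x : commutator L) : L) ∈ f.ker := x.2
            exact congrArg Subtype.val (MonoidHom.mem_ker.1 h2)⟩
          map_one' := rfl
          map_mul' := fun a b => rfl }
      apply Subgroup.card_dvd_of_injective i
      intro a b hab
      have h3 : (((a : commutator L) : L) : G) = (((b : commutator L) : L) : G) := congrArg (fun y : φ.ker => (y : G)) hab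
      exact Subtype.ext (Subtype.ext (Subtype.ext h3))
    exact ((Nat.Prime.coprime_iff_not_dvd hp5.out).2 fun h2 => h5 (h2.trans h1)).symm
  obtain ⟨θ, hθ, hcomp⟩ := H905.PCover.exists_hom_of_noPCov (G := SpecialLinearGroup (Fin 2) (ZMod 5)) (p := 5)
    (H464.Sl2.commutator_sl2 (by rw [ZMod.card]; norm_num))
    (fun s hs hne => H60.CrossA.noPCov_SL_cross 1 5 hs hne)
    (πG := ψ) hψ hψk.le hL1 hf1 hf1k hp5.out hcop
  have hval : ∀ x, φ ((θ x : L) : G) = ψ x := by
    intro x
    have h1 : f1 (θ x) = ψ x := DFunLike.congr_fun hcomp x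
    rw [← h1]
    rfl
  refine ⟨L.subtype.comp ((commutator L).subtype.comp θ), ?_, ?_, ?_⟩
  · intro x
    change φ ((θ x : L) : G) ∈ st5
    rw [hval]
    exact (ψ x).2
  · intro s hs
    obtain ⟨x, hx⟩ := hψ ⟨s, hs⟩
    refine ⟨x, ?_⟩
    change φ ((θ x : L) : G) = s
    rw [hval, hx]
  · intro x
    change φ ((θ x : L) : G) = 1 ↔ _
    rw [hval]
    have h1 : ((ψ x : st5) : Perm (Fin 6)) = 1 ↔ x ∈ Subgroup.center (SpecialLinearGroup (Fin 2) (ZMod 5)) := by
      rw [← hψk, MonoidHom.mem_ker]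
      exact OneMemClass.coe_eq_one
    rw [h1]
    exact center_sl5 x

end Cfsg.Agent.H930.Six
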