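import Cfsg.Agent.PermutationGroups.ZassIcos
import Cfsg.Agent.H464.L2Cover

/-!
# The two-dimensional representations of `SL₂(5)` and sums over `SL₂(5)` (helper930)

* `exists_ico` : `g² = g + 1`, `α² + β² = -1` in `K` ⟹ an injective `ρ : SL₂(5) →* GL₂(K)`;
* `Ico ρ` facts: `det_one`, `tr_neg`, `tr_inv`, `tau`, `tau_sq`;
* `sum_class` : `∑ χ(x) tr ρ(x⁻¹) = 24 (2 + t τ + u τ')`;
* `exists_inter` : the sum is non-zero ⟹ an intertwining matrix.
-/

set_option autoImplicit false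
set_option linter.unusedSectionVars false

namespace Cfsg.Agent.H930.Six

open Matrix

/-- `SL₂(5)` -/
abbrev S5 := SpecialLinearGroup (Fin 2) (ZMod 5)

/-- the element `1 1 / 0 1` -/
def u5 : S5 := ⟨!![1, 1; 0, 1], by decide⟩

/-- the class of `u5` -/
def isA (x : S5) : Prop :=
  x.1 0 0 + x.1 1 1 = 2 ∧ (x.1 0 1 = 1 ∨ x.1 0 1 = 4 ∨ (x.1 0 1 = 0 ∧ (x.1 1 0 = 1 ∨ x.1 1 0 = 4)))

/-- the class of `u5²` -/
def isB (x : S5) : Prop :=
  x.1 0 0 + x.1 1 1 = 2 ∧ (x.1 0 1 = 2 ∨ x.1 0 1 = 3 ∨ (x.1 0 1 = 0 ∧ (x.1 1 0 = 2 ∨ x.1 1 0 = 3)))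

instance : DecidablePred isA := fun x => by unfold isA; infer_instance

instance : DecidablePred isB := fun x => by unfold isB; infer_instance

/-- the element swapping the classes -/
def dl : GL (Fin 2) (ZMod 5) := ⟨!![2, 0; 0, 1], !![3, 0; 0, 1], by decide, by decide⟩

/-- conjugation by `diag(2, 1)` -/
def δ : S5 →* S5 where
  toFun x := ⟨!![2, 0; 0, 1] * x.1 * !![3, 0; 0, 1], by
    rw [Matrix.det_mul, Matrix.det_mul, x.2, Matrix.det_fin_two, Matrix.det_fin_two]; decide⟩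
  map_one' := Subtype.ext (by
    change !![2, 0; 0, 1] * (1 : Matrix (Fin 2) (Fin 2) (ZMod 5)) * !![3, 0; 0, 1] = 1
    decide)
  map_mul' := by
    intro a b
    apply Subtype.ext
    have h : (!![3, 0; 0, 1] : Matrix (Fin 2) (Fin 2) (ZMod 5)) * !![2, 0; 0, 1] = 1 := by decide
    change !![2, 0; 0, 1] * (a.1 * b.1) * !![3, 0; 0, 1] =
      (!![2, 0; 0, 1] * a.1 * !![3, 0; 0, 1]) * (!![2, 0; 0, 1] * b.1 * !![3, 0; 0, 1])
    simp only [Matrix.mul_assoc]
    rw [← Matrix.mul_assoc (!![3, 0; 0, 1] : Matrix (Fin 2) (Fin 2) (ZMod 5)) !![2, 0; 0, 1], h, Matrix.one_mul]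

section decides

set_option maxRecDepth 100000

theorem cardA : (Finset.univ.filter isA).card = 12 := by decide +kernel

theorem cardB : (Finset.univ.filter isB).card = 12 := by decide +kernel

theorem cardA' : (Finset.univ.filter fun x => isA (-x)).card = 12 := by decide +kernel

theorem cardB' : (Finset.univ.filter fun x => isB (-x)).card = 12 := by decide +kernel

theorem conjA : ∀ x, isA x → ∃ y : S5, y * x = u5 * y := by decide +kernel

theorem conjB : ∀ x, isB x → ∃ y : S5, y * x = u5 ^ 2 * y := by decide +kernel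

theorem classes : ∀ x : S5, x = 1 ∨ x = -1 ∨ isA x ∨ isB x ∨ isA (-x) ∨ isB (-x) ∨ x ^ 2 = -1 ∨ x ^ 3 = 1 ∨
    x ^ 3 = -1 := by decide +kernel

theorem disj : ∀ x : S5, (x = 1 → x ≠ -1 ∧ ¬ isA x ∧ ¬ isB x ∧ ¬ isA (-x) ∧ ¬ isB (-x)) ∧
    (x = -1 → ¬ isA x ∧ ¬ isB x ∧ ¬ isA (-x) ∧ ¬ isB (-x)) ∧ (isA x → ¬ isB x ∧ ¬ isA (-x) ∧ ¬ isB (-x)) ∧
    (isB x → ¬ isA (-x) ∧ ¬ isB (-x)) ∧ (isA (-x) → ¬ isB (-x)) := by decide +kernel

theorem δ_u5 : ∃ y : S5, y * δ u5 = u5 ^ 2 * y := by decide +kernel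

theorem δ_u5_sq : ∃ y : S5, y * δ (u5 ^ 2) = u5 * y := by decide +kernel

theorem u5_facts : u5 ^ 5 = 1 ∧ u5 ≠ 1 ∧ u5 ≠ -1 ∧ u5 ^ 2 ≠ 1 ∧ u5 ^ 2 ≠ -1 ∧ (-1 : S5) ≠ 1 ∧ (-1 : S5) * -1 = 1 := by
  decide +kernel

end decides

theorem δ_injective : Function.Injective δ := by
  rw [injective_iff_map_eq_one]
  intro x hx
  have h1 : (!![2, 0; 0, 1] * x.1 * !![3, 0; 0, 1] : Matrix (Fin 2) (Fin 2) (ZMod 5)) = 1 := congrArg Subtype.val hx
  have h2 : (!![3, 0; 0, 1] : Matrix (Fin 2) (Fin 2) (ZMod 5)) * !![2, 0; 0, 1] = 1 := by decide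
  apply Subtype.ext
  calc x.1 = (!![3, 0; 0, 1] * !![2, 0; 0, 1]) * x.1 * (!![3, 0; 0, 1] * !![2, 0; 0, 1]) := by
        rw [h2, Matrix.one_mul, Matrix.mul_one]
    _ = !![3, 0; 0, 1] * (!![2, 0; 0, 1] * x.1 * !![3, 0; 0, 1]) * !![2, 0; 0, 1] := by simp only [Matrix.mul_assoc]
    _ = 1 := by rw [h1, Matrix.mul_one, h2]

section field

variable {K : Type*} [Field K]

theorem cayley {a b c d : K} (ht : a + d = -1) (hd : a * d - b * c = 1) :
    (!![a, b; c, d] : Matrix (Fin 2) (Fin 2) K) * !![a, b; c, d] + !![a, b; c, d] + 1 = 0 := by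
  have e : d = -1 - a := by linear_combination ht
  subst e
  have hbc : b * c = -1 - a - a * a := by linear_combination -hd
  ext i j
  fin_cases i <;> fin_cases j <;> simp
  · linear_combination hbc
  · ring
  · ring
  · linear_combination hbc

theorem polar {a b c d a' b' c' d' : K} (ht : a + d = -1) (ht' : a' + d' = -1) :
    (!![a, b; c, d] : Matrix (Fin 2) (Fin 2) K) * !![a', b'; c', d'] + !![a', b'; c', d'] * !![a, b; c, d] +
      !![a, b; c, d] + !![a', b'; c', d'] + 1 = (a * a' + b * c' + c * b' + d * d') • (1 : Matrix (Fin 2) (Fin 2) K) := by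
  have e : d = -1 - a := by linear_combination ht
  have e' : d' = -1 - a' := by linear_combination ht'
  subst e e'
  ext i j
  fin_cases i <;> fin_cases j <;> simp <;> ring

/-- the icosahedral representation -/
theorem exists_ico (h2 : (2 : K) ≠ 0) (h3 : (3 : K) ≠ 0) (h5 : (5 : K) ≠ 0) {g α β : K} (hg : g * g = g + 1)
    (hαβ : α * α + β * β = -1) : ∃ ρ : S5 →* GL (Fin 2) K, Function.Injective ρ := by
  have hu : ∀ n : ℕ, (n : K) ≠ 0 → IsUnit ((n : ℕ) : Matrix (Fin 2) (Fin 2) K) := by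
    intro n hc
    have hn : ((n : ℕ) : Matrix (Fin 2) (Fin 2) K) = (n : K) • 1 := by
      rw [← Matrix.diagonal_natCast, Matrix.smul_one_eq_diagonal]
    rw [hn]
    refine ⟨⟨(n : K) • 1, (n : K)⁻¹ • 1, ?_, ?_⟩, rfl⟩
    · rw [Matrix.smul_mul, Matrix.one_mul, smul_smul, mul_inv_cancel₀ hc, one_smul]
    · rw [Matrix.smul_mul, Matrix.one_mul, smul_smul, inv_mul_cancel₀ hc, one_smul]
  obtain ⟨x, hx⟩ : ∃ x : Matrix (Fin 2) (Fin 2) K, x = !![(-1 + α - β) / 2, (β + 1 + α) / 2;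
    (β - 1 + α) / 2, (-1 - α + β) / 2] := ⟨_, rfl⟩
  obtain ⟨y, hy⟩ : ∃ y : Matrix (Fin 2) (Fin 2) K, y = !![(-1 + (1 - g) * α) / 2, ((1 - g) * β - g) / 2;
    ((1 - g) * β + g) / 2, (-1 - (1 - g) * α) / 2] := ⟨_, rfl⟩
  have hxx : x * x + x + 1 = 0 := by
    rw [hx]
    apply cayley
    · field_simp; ring
    · field_simp; linear_combination -(2 : K) * hαβ
  have hyy : y * y + y + 1 = 0 := by
    rw [hy]
    apply cayley
    · field_simp; ring
    · field_simp; linear_combination -(1 - g) ^ 2 * hαβ + (2 : K) * hg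
  have hT : x * y + y * x + x + y + 1 = g • (1 : Matrix (Fin 2) (Fin 2) K) := by
    rw [hx, hy, polar (by field_simp; ring) (by field_simp; ring)]
    congr 1
    field_simp
    linear_combination (2 : K) * (1 - g) * hαβ
  have hxi : x * (-1 - x) = 1 := by
    have : x * (-1 - x) = -(x * x + x + 1) + 1 := by noncomm_ring
    rw [this, hxx, neg_zero, zero_add]
  have hxi' : (-1 - x) * x = 1 := by
    have : (-1 - x) * x = -(x * x + x + 1) + 1 := by noncomm_ring
    rw [this, hxx, neg_zero, zero_add]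
  have hyi : y * (-1 - y) = 1 := by
    have : y * (-1 - y) = -(y * y + y + 1) + 1 := by noncomm_ring
    rw [this, hyy, neg_zero, zero_add]
  have hyi' : (-1 - y) * y = 1 := by
    have : (-1 - y) * y = -(y * y + y + 1) + 1 := by noncomm_ring
    rw [this, hyy, neg_zero, zero_add]
  obtain ⟨Ψ, hΨ, -⟩ := Cfsg.Agent.PermutationGroups.ZassIcos.icosahedral (E := Matrix (Fin 2) (Fin 2) K)
    (by exact_mod_cast hu 2 (by exact_mod_cast h2)) (by exact_mod_cast hu 3 (by exact_mod_cast h3))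
    (by exact_mod_cast hu 5 (by exact_mod_cast h5)) ⟨x, -1 - x, hxi, hxi'⟩ ⟨y, -1 - y, hyi, hyi'⟩
    (by rw [pow_two]; exact hxx) (by rw [pow_two]; exact hyy)
    (by
      change (x * y + y * x + x + y + 1) * (x * y + y * x + x + y + 1) = x * y + y * x + x + y + 1 + 1
      rw [hT, Matrix.smul_mul, Matrix.one_mul, smul_smul, hg, add_smul, one_smul])
  exact ⟨Ψ, hΨ⟩

/-! ### consequences of injectivity -/

variable {ρ : S5 →* GL (Fin 2) K}

theorem det_one (ρ : S5 →* GL (Fin 2) K) (x : S5) : ((ρ x : GL (Fin 2) K) : Matrix (Fin 2) (Fin 2) K).det = 1 := by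
  have : Fact (Nat.Prime 5) := ⟨by norm_num⟩
  have h1 := H464.Sl2.hom_eq_one (K := ZMod 5) (by rw [ZMod.card]; norm_num) (Matrix.GeneralLinearGroup.det.comp ρ)
  have h2 := DFunLike.congr_fun h1 x
  rw [MonoidHom.comp_apply, MonoidHom.one_apply] at h2
  rw [← Matrix.GeneralLinearGroup.val_det_apply, h2, Units.val_one]

/-- Cayley–Hamilton -/
theorem sq_eq (ρ : S5 →* GL (Fin 2) K) (x : S5) : ((ρ x : GL (Fin 2) K) : Matrix (Fin 2) (Fin 2) K) * (ρ x).1 =
    (ρ x).1.trace • (ρ x).1 - 1 := by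
  have h1 := det_one ρ x
  generalize (ρ x).1 = M at *
  rw [Matrix.det_fin_two] at h1
  rw [Matrix.trace_fin_two]
  ext i j
  fin_cases i <;> fin_cases j <;> simp [Matrix.mul_apply, Fin.sum_univ_two] <;> first | ring1 | linear_combination -h1

theorem coe_mul' (ρ : S5 →* GL (Fin 2) K) (x y : S5) : (ρ (x * y)).1 = (ρ x).1 * (ρ y).1 := by
  rw [map_mul, Units.val_mul]

theorem rho_neg_one (h2 : (2 : K) ≠ 0) (hρ : Function.Injective ρ) : (ρ (-1)).1 = -1 := by
  obtain ⟨-, -, -, -, -, hne, hsq⟩ := u5_facts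
  have h1 := sq_eq ρ (-1)
  rw [← coe_mul', hsq, map_one, Units.val_one] at h1
  have h3 := det_one ρ (-1)
  obtain ⟨M, hM⟩ : ∃ M, M = (ρ (-1)).1 := ⟨_, rfl⟩
  rw [← hM] at h1 h3 ⊢
  obtain ⟨s, hs⟩ : ∃ s, s = M.trace := ⟨_, rfl⟩
  rw [← hs] at h1
  have h4 : s • M = (2 : K) • (1 : Matrix (Fin 2) (Fin 2) K) := by
    rw [two_smul]
    nth_rewrite 2 [h1]
    abel
  have hs0 : s ≠ 0 := by
    rintro rfl
    rw [zero_smul] at h4
    have h5 := congrFun (congrFun h4 0) 0
    simp at h5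
    exact h2 h5.symm
  have h5 : M = (s⁻¹ * 2) • (1 : Matrix (Fin 2) (Fin 2) K) := by
    rw [mul_smul, ← h4, smul_smul, inv_mul_cancel₀ hs0, one_smul]
  rw [h5, Matrix.det_smul, Matrix.det_one, mul_one, Fintype.card_fin, sq] at h3
  rcases mul_self_eq_one_iff.1 h3 with h6 | h6
  · exfalso
    apply hne
    apply hρ
    apply Units.ext
    rw [← hM, h5, h6, one_smul, map_one, Units.val_one]
  · rw [h5, h6, neg_smul, one_smul]

theorem rho_neg (h2 : (2 : K) ≠ 0) (hρ : Function.Injective ρ) (x : S5) : (ρ (-x)).1 = -(ρ x).1 := by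
  rw [← neg_one_mul, coe_mul', rho_neg_one h2 hρ, neg_one_mul]

theorem tr_inv (ρ : S5 →* GL (Fin 2) K) (x : S5) : (ρ x⁻¹).1.trace = (ρ x).1.trace := by
  have h1 := sq_eq ρ x
  have h2 : (ρ x⁻¹).1 = (ρ x).1.trace • 1 - (ρ x).1 := by
    have h3 : (ρ x⁻¹).1 * (ρ x).1 = 1 := by rw [← coe_mul', inv_mul_cancel, map_one, Units.val_one]
    have h4 : (ρ x).1 * ((ρ x).1.trace • 1 - (ρ x).1) = 1 := by
      rw [mul_sub, h1, Matrix.mul_smul, mul_one]
      abel
    calc (ρ x⁻¹).1 = (ρ x⁻¹).1 * ((ρ x).1 * ((ρ x).1.trace • 1 - (ρ x).1)) := by rw [h4, mul_one]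
      _ = (ρ x).1.trace • 1 - (ρ x).1 := by rw [← mul_assoc, h3, one_mul]
  rw [h2, Matrix.trace_sub, Matrix.trace_smul, Matrix.trace_one, Fintype.card_fin, smul_eq_mul]
  push_cast
  ring

theorem tr_conj5 (ρ : S5 →* GL (Fin 2) K) {x x' y : S5} (h : y * x = x' * y) : (ρ x).1.trace = (ρ x').1.trace := by
  have e : x = y⁻¹ * (x' * y) := by rw [← h]; group
  rw [e, coe_mul', coe_mul', Matrix.trace_mul_comm, Matrix.mul_assoc, ← coe_mul', mul_inv_cancel, map_one, Units.val_one,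
    Matrix.mul_one]

/-- the trace of `ρ(u5)` -/
theorem tau (hρ : Function.Injective ρ) : (ρ u5).1.trace ^ 2 + (ρ u5).1.trace - 1 = 0 := by
  obtain ⟨h5, hne, -⟩ := u5_facts
  have h1 := sq_eq ρ u5
  have hdet := det_one ρ u5
  have h6 : (ρ u5).1 ^ 5 = 1 := by
    rw [← Units.val_pow_eq_pow_val, ← map_pow, h5, map_one, Units.val_one]
  have hne' : (ρ u5).1 ≠ 1 := by
    intro h7
    apply hne
    apply hρ
    apply Units.ext
    rw [h7, map_one, Units.val_one]
  generalize (ρ u5).1 = M at *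
  generalize M.trace = t at *
  have h3 : M ^ 3 = (t ^ 2 - 1) • M - t • 1 := by
    rw [pow_succ, pow_two, h1, sub_mul, Matrix.smul_mul, h1, smul_sub, smul_smul, one_mul, sub_smul, one_smul, sq]
    abel
  have h4 : M ^ 5 = (t ^ 4 - 3 * t ^ 2 + 1) • M - (t ^ 3 - 2 * t) • 1 := by
    rw [show 5 = 3 + 2 from rfl, pow_add, h3, pow_two M, h1, sub_mul, Matrix.smul_mul, Matrix.smul_mul, one_mul, mul_sub,
      Matrix.mul_smul, h1, mul_one, smul_sub, smul_sub, smul_sub, smul_smul, smul_smul, smul_smul]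
    ext i j
    simp only [Matrix.sub_apply, Matrix.smul_apply, smul_eq_mul]
    ring
  rw [h4] at h6
  have h7 : (t ^ 4 - 3 * t ^ 2 + 1) • M = (t ^ 3 - 2 * t + 1) • (1 : Matrix (Fin 2) (Fin 2) K) := by
    rw [sub_eq_iff_eq_add] at h6
    rw [h6, add_smul (t ^ 3 - 2 * t) 1, one_smul, add_comm]
  by_cases hc : t ^ 4 - 3 * t ^ 2 + 1 = 0
  · rw [hc, zero_smul] at h7
    have h8 := congrFun (congrFun h7 0) 0
    simp at h8
    have h9 : (t - 1) * (t ^ 2 + t - 1) = 0 := by linear_combination -h8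
    rcases mul_eq_zero.1 h9 with h10 | h10
    · exfalso
      have h11 : t = 1 := sub_eq_zero.1 h10
      rw [h11] at hc
      norm_num at hc
    · exact h10
  · exfalso
    obtain ⟨c, hcM⟩ : ∃ c : K, M = c • 1 := ⟨(t ^ 4 - 3 * t ^ 2 + 1)⁻¹ * (t ^ 3 - 2 * t + 1), by
      rw [mul_smul, ← h7, smul_smul, inv_mul_cancel₀ hc, one_smul]⟩
    rw [hcM, Matrix.det_smul, Matrix.det_one, mul_one, Fintype.card_fin] at hdet
    have h8 : M ^ 5 = 1 := by rw [h4, h6]
    rw [hcM, smul_pow, one_pow] at h8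
    have h9 := congrFun (congrFun h8 0) 0
    simp at h9
    have h10 : c = 1 := by
      have : c ^ 5 = c ^ 2 * c ^ 2 * c := by ring
      rw [this, hdet, one_mul, one_mul] at h9
      exact h9
    apply hne'
    rw [hcM, h10, one_smul]

theorem tr_sq (ρ : S5 →* GL (Fin 2) K) (x : S5) : (ρ (x ^ 2)).1.trace = (ρ x).1.trace ^ 2 - 2 := by
  rw [pow_two, coe_mul', sq_eq, Matrix.trace_sub, Matrix.trace_smul, Matrix.trace_one, Fintype.card_fin, smul_eq_mul, sq]
  push_cast
  ring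

/-! ### sums over the group -/

variable {ι : Type*} [Fintype ι] [DecidableEq ι]

/-- **The inner product with `ρ`.** -/
theorem sum_class (h2 : (2 : K) ≠ 0) (hρ : Function.Injective ρ) (M : S5 →* Matrix ι ι K) (hι : Fintype.card ι = 12)
    (hneg : M (-1) = -1) (h4 : ∀ x, x ^ 2 = -1 → (M x).trace = 0) (h3 : ∀ x, x ^ 3 = 1 → x ≠ 1 → (M x).trace = 0) :
    ∑ x : S5, (M x).trace * (ρ x⁻¹).1.trace =
      24 * (2 + (M u5).trace * (ρ u5).1.trace + (M (u5 ^ 2)).trace * (ρ (u5 ^ 2)).1.trace) := by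
  classical
  have hMneg : ∀ x, (M (-x)).trace = -(M x).trace := by
    intro x
    rw [← neg_one_mul, map_mul, hneg, neg_one_mul, Matrix.trace_neg]
  have hMconj : ∀ {x x' y : S5}, y * x = x' * y → (M x).trace = (M x').trace := by
    intro x x' y h
    have e : x = y⁻¹ * (x' * y) := by rw [← h]; group
    rw [e, map_mul, map_mul, Matrix.trace_mul_comm, Matrix.mul_assoc, ← map_mul, mul_inv_cancel, map_one, Matrix.mul_one]
  obtain ⟨-, -, -, -, -, hne, -⟩ := u5_facts
  set a := (M u5).trace * (ρ u5).1.trace with ha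
  set b := (M (u5 ^ 2)).trace * (ρ (u5 ^ 2)).1.trace with hb
  let Φ : S5 → K := fun x =>
    (if x = 1 then 24 else 0) + (if x = -1 then 24 else 0) + (if isA x then a else 0) + (if isB x then b else 0) +
      (if isA (-x) then a else 0) + (if isB (-x) then b else 0)
  have hA : ∀ x, isA x → (M x).trace * (ρ x).1.trace = a := by
    intro x hx
    obtain ⟨y, hy⟩ := conjA x hx
    rw [hMconj hy, tr_conj5 ρ hy]
  have hB : ∀ x, isB x → (M x).trace * (ρ x).1.trace = b := by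
    intro x hx
    obtain ⟨y, hy⟩ := conjB x hx
    rw [hMconj hy, tr_conj5 ρ hy]
  have hn : ∀ x, (M (-x)).trace * (ρ (-x)).1.trace = (M x).trace * (ρ x).1.trace := by
    intro x
    rw [hMneg, rho_neg h2 hρ, Matrix.trace_neg]
    ring
  have h1' : (M 1).trace * (ρ 1).1.trace = 24 := by
    rw [map_one, map_one, Units.val_one, Matrix.trace_one, Matrix.trace_one, hι, Fintype.card_fin]
    norm_num
  have hΦ : ∀ x, (M x).trace * (ρ x⁻¹).1.trace = Φ x := by
    intro x
    rw [tr_inv]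
    obtain ⟨d1, d2, d3, d4, d5⟩ := disj x
    simp only [Φ]
    by_cases c1 : x = 1
    · obtain ⟨e1, e2, e3, e4, e5⟩ := d1 c1
      rw [if_pos c1, if_neg e1, if_neg e2, if_neg e3, if_neg e4, if_neg e5, c1, h1']
      ring
    by_cases c2 : x = -1
    · obtain ⟨e2, e3, e4, e5⟩ := d2 c2
      rw [if_neg c1, if_pos c2, if_neg e2, if_neg e3, if_neg e4, if_neg e5, c2, hn, h1']
      ring
    by_cases c3 : isA x
    · obtain ⟨e3, e4, e5⟩ := d3 c3
      rw [if_neg c1, if_neg c2, if_pos c3, if_neg e3, if_neg e4, if_neg e5, hA x c3]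
      ring
    by_cases c4 : isB x
    · obtain ⟨e4, e5⟩ := d4 c4
      rw [if_neg c1, if_neg c2, if_neg c3, if_pos c4, if_neg e4, if_neg e5, hB x c4]
      ring
    by_cases c5 : isA (-x)
    · rw [if_neg c1, if_neg c2, if_neg c3, if_neg c4, if_pos c5, if_neg (d5 c5), ← hn, hA _ c5]
      ring
    by_cases c6 : isB (-x)
    · rw [if_neg c1, if_neg c2, if_neg c3, if_neg c4, if_neg c5, if_pos c6, ← hn, hB _ c6]
      ring
    rw [if_neg c1, if_neg c2, if_neg c3, if_neg c4, if_neg c5, if_neg c6]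
    have h0 : (M x).trace = 0 := by
      rcases classes x with c | c | c | c | c | c | c | c | c
      · exact absurd c c1
      · exact absurd c c2
      · exact absurd c c3
      · exact absurd c c4
      · exact absurd c c5
      · exact absurd c c6
      · exact h4 x c
      · exact h3 x c c1
      · have h5 : (-x) ^ 3 = 1 := by
          rw [Odd.neg_pow (by decide), c, neg_neg]
        have h6 := h3 (-x) h5 (fun h => c2 (by rw [← h, neg_neg]))
        rw [hMneg] at h6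
        exact neg_eq_zero.1 h6
    rw [h0]
    ring
  rw [Finset.sum_congr rfl fun x _ => hΦ x]
  simp only [Φ]
  rw [Finset.sum_add_distrib, Finset.sum_add_distrib, Finset.sum_add_distrib, Finset.sum_add_distrib,
    Finset.sum_add_distrib, Finset.sum_ite_eq', Finset.sum_ite_eq', if_pos (Finset.mem_univ _),
    if_pos (Finset.mem_univ _), ← Finset.sum_filter, ← Finset.sum_filter, ← Finset.sum_filter, ← Finset.sum_filter,
    Finset.sum_const, Finset.sum_const, Finset.sum_const, Finset.sum_const, cardA, cardB, cardA', cardB',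
    nsmul_eq_mul, nsmul_eq_mul]
  push_cast
  ring

/-- **Intertwining matrices from the inner product.** -/
theorem exists_inter {κ : Type*} [Fintype κ] [DecidableEq κ] {X : Type*} [Group X] [Fintype X] (M : X →* Matrix ι ι K)
    (R : X →* Matrix κ κ K) (hne : ∑ x : X, (M x).trace * (R x⁻¹).trace ≠ 0) :
    ∃ T : Matrix ι κ K, T ≠ 0 ∧ ∀ x, M x * T = T * R x := by
  let S : Matrix ι κ K → Matrix ι κ K := fun E => ∑ x : X, M x * E * R x⁻¹
  have hS : ∀ E y, M y * S E = S E * R y := by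
    intro E y
    simp only [S]
    rw [Matrix.mul_sum, Matrix.sum_mul]
    refine Fintype.sum_equiv (Equiv.mulLeft y) _ _ fun x => ?_
    rw [Equiv.coe_mulLeft, _root_.mul_inv_rev, map_mul, map_mul]
    simp only [Matrix.mul_assoc]
    rw [← map_mul, inv_mul_cancel, map_one, Matrix.mul_one]
  by_contra hcon
  push Not at hcon
  have h0 : ∀ E, S E = 0 := by
    intro E
    by_contra h1
    obtain ⟨x, hx⟩ := hcon (S E) h1
    exact hx (hS E x)
  apply hne
  have h1 : ∀ i j, ∑ x : X, (M x) i i * (R x⁻¹) j j = 0 := by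
    intro i j
    have h2 := congrFun (congrFun (h0 (Matrix.single i j 1)) i) j
    simp only [S] at h2
    rw [Matrix.sum_apply, Matrix.zero_apply] at h2
    rw [← h2]
    refine Finset.sum_congr rfl fun x _ => ?_
    rw [Matrix.mul_apply, Finset.sum_eq_single j]
    · rw [Matrix.mul_single_apply_same, mul_one]
    · intro d _ hd
      rw [Matrix.mul_single_apply_of_ne _ _ _ _ _ hd, zero_mul]
    · intro hb; exact absurd (Finset.mem_univ _) hb
  unfold Matrix.trace
  simp only [Matrix.diag_apply]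
  calc ∑ x : X, (∑ i, (M x) i i) * ∑ j, (R x⁻¹) j j
      = ∑ x : X, ∑ i, ∑ j, (M x) i i * (R x⁻¹) j j := by
        refine Finset.sum_congr rfl fun x _ => ?_
        rw [Finset.sum_mul_sum]
    _ = ∑ i, ∑ j, ∑ x : X, (M x) i i * (R x⁻¹) j j := by
        rw [Finset.sum_comm]
        refine Finset.sum_congr rfl fun i _ => ?_
        rw [Finset.sum_comm]
    _ = 0 := by simp only [h1, Finset.sum_const_zero]

end field

end Cfsg.Agent.H930.Six
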