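import Cfsg.Agent.H68.AltMul
import Cfsg.Agent.H269.ThreeA6.Triv
import Cfsg.Agent.H861.SixT.Main
import Cfsg.Agent.H930.SixKill
import Cfsg.Agent.H930.SixFive

/-!
# No maximal subgroup of `SL₁₂(q)`, `SU₁₂(q)` with socle `A₆` and scalars of order divisible by three (helper930)

* `six_cases` : a core with socle `A₆`, `3` dividing the number of scalars, dimension twelve: exactly six scalars, `p ≥ 7`;
* `a6_SL`, `a6_SU` : the kills.
-/

set_option autoImplicit false
set_option linter.unusedSectionVars false

namespace Cfsg.Agent.H930.Six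

open Cfsg Cfsg.Geo Matrix Equiv Cfsg.Agent.H915.LD

universe u v

variable {F : Type u} [Field F]

/-- a core with socle `A₆`, `3` dividing the number of scalars, dimension twelve -/
theorem six_cases [Finite F] {ι : Type} [Fintype ι] [DecidableEq ι] {P : Subgroup (GL ι F)} (hC : Core P)
    (e : Soc P ≃* alternatingGroup (Fin 6)) (hn : Fintype.card ι = 12)
    (hz : 3 ∣ Nat.card ((scalars ι F).subgroupOf P)) (p : ℕ) [hp : Fact p.Prime] [CharP F p] :
    Nat.card ((scalars ι F).subgroupOf P) = 6 ∧ 7 ≤ p := by
  have hcov := exists_cov hC e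
  have hdvd : Nat.card ((scalars ι F).subgroupOf P) ∣ 6 := by
    have h1 := hC.card_scalars_dvd e (H68.AltMul.main (n := 6) (Or.inl rfl))
    simpa using h1
  have hcase : Nat.card ((scalars ι F).subgroupOf P) = 3 ∨ Nat.card ((scalars ι F).subgroupOf P) = 6 := by
    obtain ⟨c, hc⟩ := hz
    have h2 := Nat.le_of_dvd (by norm_num) hdvd
    have h3 : c = 1 ∨ c = 2 ∨ c = 0 := by omega
    rcases h3 with rfl | rfl | rfl
    · exact Or.inl (by omega)
    · exact Or.inr (by omega)
    · rw [hc, mul_zero] at hdvd
      exact absurd hdvd (by norm_num)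
  rw [← ker_toPerm e] at hcase ⊢
  have h3 : (3 : F) ≠ 0 := by
    have := hcov.cast_ne Nat.prime_three (by
      rcases hcase with h | h
      · rw [h]
      · rw [h]; norm_num)
    exact_mod_cast this
  have hp3 : p ≠ 3 := by
    rintro rfl
    exact h3 (by exact_mod_cast CharP.cast_eq_zero F 3)
  have hp0 := hp.out
  rcases hcase with hk | hk
  · exfalso
    by_cases h2 : p = 2
    · subst h2
      exact H861.SixT.no_three_two hcov hk hn
    · have h5 : 5 ≤ p := by
        have := hp0.two_le
        have h4 : p ≠ 4 := by rintro rfl; exact absurd hp0 (by norm_num)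
        omega
      exact H269.ThreeA6.no_three_odd hcov p h5 hk hn
  · refine ⟨hk, ?_⟩
    have h2 : (2 : F) ≠ 0 := by
      have := hcov.cast_ne Nat.prime_two (by rw [hk]; norm_num)
      exact_mod_cast this
    have hp2 : p ≠ 2 := by
      rintro rfl
      exact h2 (by exact_mod_cast CharP.cast_eq_zero F 2)
    have hp5 : p ≠ 5 := by
      rintro rfl
      exact no_six_five hcov hk hn
    have h4 : p ≠ 4 := by rintro rfl; exact absurd hp0 (by norm_num)
    have h6 : p ≠ 6 := by rintro rfl; exact absurd hp0 (by norm_num)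
    have := hp0.two_le
    omega

variable [Fintype F]

/-- **`SL₁₂(q)` has no maximal subgroup with a core of socle `A₆` and `3` dividing the number of its scalars.** -/
theorem a6_SL {H P : Subgroup (GL (Fin 12) F)} (hc : IsResidualCore H P)
    (hH : IsMaximalIn (specialLinear (Fin 12) F) H) (e : Soc P ≃* alternatingGroup (Fin 6))
    (hz : 3 ∣ Nat.card ((scalars (Fin 12) F).subgroupOf P)) : False := by
  obtain ⟨p, hchar⟩ := CharP.exists F
  have hp : Fact p.Prime := ⟨CharP.char_is_prime F p⟩
  obtain ⟨h6, h7⟩ := six_cases (core_of_residual hc) e (Fintype.card_fin 12) hz p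
  exact six_SL hc hH e h6 p h7

/-- **`SU₁₂(q)` has no maximal subgroup with a core of socle `A₆` and `3` dividing the number of its scalars.** -/
theorem a6_SU {q : ℕ} (hF : Fintype.card F = q ^ 2) {H P : Subgroup (GL (Fin 12) F)} (hc : IsResidualCore H P)
    (hH : IsMaximalIn (GU 12 F q ⊓ specialLinear (Fin 12) F) H) (e : Soc P ≃* alternatingGroup (Fin 6))
    (hz : 3 ∣ Nat.card ((scalars (Fin 12) F).subgroupOf P)) : False := by
  obtain ⟨p, hchar⟩ := CharP.exists F
  have hp : Fact p.Prime := ⟨CharP.char_is_prime F p⟩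
  obtain ⟨h6, h7⟩ := six_cases (core_of_residual hc) e (Fintype.card_fin 12) hz p
  exact six_SU hF hc hH e h6 p h7

end Cfsg.Agent.H930.Six
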