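import Cfsg.Agent.H930.SixBase

/-!
# Covers of `A₆` with a kernel of order six: lifts of involutions (helper930)

`|ker φ| = 6`:
* `Cov.two_ne`, `Cov.three_ne`, `Cov.exists_neg` : the element `z` of `ker φ` acting as `-1`;
* `Cov.no_inv` : `g * g = 1` ⟹ `φ g = 1` (transfer); `Cov.pow_six` : `g ^ 6 = z` for the lifts `g` of involutions;
* `Cov.tr_two` : the trace vanishes over involutions.
-/

set_option autoImplicit false
set_option linter.unusedSectionVars false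
set_option linter.unusedSimpArgs false
set_option linter.unusedVariables false

namespace Cfsg.Agent.H930.Six

section dihedral

variable {G : Type*} [Group G]

/-- `[C^i X^j, C^k X^l] ∈ ⟨C²⟩` for `X C X⁻¹ = C⁻¹` -/
theorem comm_dihedral {C X : G} (h : X * C * X⁻¹ = C⁻¹) (hX : X * X = 1) (i k : ℤ) (j l : Fin 2) :
    C ^ i * X ^ (j : ℕ) * (C ^ k * X ^ (l : ℕ)) * (C ^ i * X ^ (j : ℕ))⁻¹ * (C ^ k * X ^ (l : ℕ))⁻¹ ∈
      Subgroup.zpowers (C ^ 2) := by
  have hz : ∀ n : ℤ, X * C ^ n = C ^ (-n) * X := by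
    intro n
    have h1 : X * C ^ n * X⁻¹ = C ^ (-n) := by
      rw [← conj_zpow, h, inv_zpow, zpow_neg]
    rw [← h1, inv_mul_cancel_right]
  have hXi : X⁻¹ = X := by rw [inv_eq_iff_mul_eq_one]; exact hX
  have h2 : ∀ n : ℤ, C ^ (2 * n) ∈ Subgroup.zpowers (C ^ 2) := by
    intro n
    refine ⟨n, ?_⟩
    change (C ^ 2) ^ n = C ^ (2 * n)
    rw [zpow_mul]
    norm_cast
  fin_cases j <;> fin_cases l
  · simp only [Fin.zero_eta, Fin.isValue, Fin.val_zero, pow_zero, mul_one, ← zpow_neg, ← zpow_add]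
    rw [show i + k + -i + -k = 2 * 0 by ring]
    exact h2 0
  · simp only [Fin.zero_eta, Fin.isValue, Fin.val_zero, pow_zero, mul_one, Fin.mk_one, Fin.val_one, pow_one]
    have e : C ^ i * (C ^ k * X) * (C ^ i)⁻¹ * (C ^ k * X)⁻¹ = C ^ (2 * i) := by
      rw [mul_inv_rev, ← zpow_neg, ← zpow_neg, hXi]
      calc C ^ i * (C ^ k * X) * C ^ (-i) * (X * C ^ (-k)) = C ^ i * C ^ k * (X * C ^ (-i)) * X * C ^ (-k) := by
            simp only [mul_assoc]
        _ = C ^ i * C ^ k * C ^ (- -i) * (X * X) * C ^ (-k) := by rw [hz]; simp only [mul_assoc]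
        _ = C ^ (2 * i) := by
            rw [hX, mul_one, ← zpow_add, ← zpow_add, ← zpow_add]
            congr 1; ring
    rw [e]
    exact h2 i
  · simp only [Fin.zero_eta, Fin.isValue, Fin.val_zero, pow_zero, mul_one, Fin.mk_one, Fin.val_one, pow_one]
    have e : C ^ i * X * C ^ k * (C ^ i * X)⁻¹ * (C ^ k)⁻¹ = C ^ (2 * (-k)) := by
      rw [mul_inv_rev, ← zpow_neg, ← zpow_neg, hXi]
      calc C ^ i * X * C ^ k * (X * C ^ (-i)) * C ^ (-k) = C ^ i * (X * C ^ k) * X * C ^ (-i) * C ^ (-k) := by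
            simp only [mul_assoc]
        _ = C ^ i * C ^ (-k) * (X * X) * C ^ (-i) * C ^ (-k) := by rw [hz]; simp only [mul_assoc]
        _ = C ^ (2 * (-k)) := by
            rw [hX, mul_one, ← zpow_add, ← zpow_add, ← zpow_add]
            congr 1; ring
    rw [e]
    exact h2 _
  · simp only [Fin.mk_one, Fin.isValue, Fin.val_one, pow_one]
    have e : C ^ i * X * (C ^ k * X) * (C ^ i * X)⁻¹ * (C ^ k * X)⁻¹ = C ^ (2 * (i - k)) := by
      rw [mul_inv_rev, mul_inv_rev, ← zpow_neg, ← zpow_neg, hXi]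
      calc C ^ i * X * (C ^ k * X) * (X * C ^ (-i)) * (X * C ^ (-k))
          = C ^ i * (X * C ^ k) * (X * X) * C ^ (-i) * X * C ^ (-k) := by simp only [mul_assoc]
        _ = C ^ i * C ^ (-k) * (X * C ^ (-i)) * X * C ^ (-k) := by rw [hz, hX, mul_one]; simp only [mul_assoc]
        _ = C ^ i * C ^ (-k) * C ^ (- -i) * (X * X) * C ^ (-k) := by rw [hz]; simp only [mul_assoc]
        _ = C ^ (2 * (i - k)) := by
            rw [hX, mul_one, ← zpow_add, ← zpow_add, ← zpow_add]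
            congr 1; ring
    rw [e]
    exact h2 _

end dihedral

open Cfsg Cfsg.Geo Matrix Equiv Cfsg.Agent.H915.LD
open scoped commutatorElement

universe u v

variable {ι : Type} [Fintype ι] [DecidableEq ι] {F : Type u} [Field F] {G : Type v} [Group G]
  {m : G →* GL ι F} {φ : G →* Perm (Fin 6)}

/-- `(0 2 1 3)(4 5)` -/
def c4 : Perm (Fin 6) := c[0, 2, 1, 3] * c[4, 5]

/-- `(2 3)(4 5)` -/
def x2 : Perm (Fin 6) := c[2, 3] * c[4, 5]

/-- the dihedral group of order eight -/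
def eight : Subgroup (Perm (Fin 6)) where
  carrier := {x | ∃ (i : Fin 4) (j : Fin 2), x = c4 ^ (i : ℕ) * x2 ^ (j : ℕ)}
  mul_mem' := by
    rintro _ _ ⟨i, j, rfl⟩ ⟨k, l, rfl⟩
    revert i j k l
    decide
  one_mem' := ⟨0, 0, by decide⟩
  inv_mem' := by
    rintro _ ⟨i, j, rfl⟩
    revert i j
    decide

theorem card_eight : Nat.card eight = 8 := by
  have h1 : Function.Bijective (fun x : Fin 4 × Fin 2 =>
      (⟨c4 ^ (x.1 : ℕ) * x2 ^ (x.2 : ℕ), x.1, x.2, rfl⟩ : eight)) := by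
    constructor
    · intro x y hxy
      have h2 := congrArg Subtype.val hxy
      revert x y
      have : ∀ x y : Fin 4 × Fin 2, c4 ^ (x.1 : ℕ) * x2 ^ (x.2 : ℕ) = c4 ^ (y.1 : ℕ) * x2 ^ (y.2 : ℕ) → x = y := by
        decide
      intro x y _ h2
      exact this x y h2
    · rintro ⟨_, i, j, rfl⟩
      exact ⟨(i, j), rfl⟩
  rw [← Nat.card_eq_of_bijective _ h1, Nat.card_eq_fintype_card, Fintype.card_prod, Fintype.card_fin, Fintype.card_fin]

theorem eight_le : eight ≤ alternatingGroup (Fin 6) := by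
  rintro _ ⟨i, j, rfl⟩
  rw [Perm.mem_alternatingGroup]
  revert i j
  decide

theorem relIndex_eight : eight.relIndex (alternatingGroup (Fin 6)) = 45 := by
  have h1 := (eight.subgroupOf (alternatingGroup (Fin 6))).card_mul_index
  rw [Nat.card_congr (Subgroup.subgroupOfEquivOfLe eight_le).toEquiv, card_eight, card_alt6] at h1
  change 8 * eight.relIndex (alternatingGroup (Fin 6)) = 360 at h1
  omega

/-! ### the scalar `-1` -/

theorem Cov.scal_pow (h : Cov m φ) {k : G} (n : ℕ) (hkn : k ^ n = 1) {c : F}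
    (hc : (m k : Matrix ι ι F) = c • (1 : Matrix ι ι F)) : c ^ n = 1 := by
  obtain ⟨i⟩ := h.nonempty
  have h1 : (m (k ^ n) : Matrix ι ι F) = c ^ n • (1 : Matrix ι ι F) := by
    rw [map_pow, Units.val_pow_eq_pow_val, hc, smul_pow, one_pow]
  rw [hkn, map_one, Units.val_one] at h1
  have h2 := congrFun (congrFun h1 i) i
  rw [Matrix.smul_apply, Matrix.one_apply_eq, smul_eq_mul, mul_one] at h2
  exact h2.symm

theorem Cov.exists_order [Finite G] (_h : Cov m φ) {r : ℕ} (hr : r.Prime) (hd : r ∣ Nat.card φ.ker) :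
    ∃ z : G, φ z = 1 ∧ z ^ r = 1 ∧ z ≠ 1 := by
  have : Fact r.Prime := ⟨hr⟩
  obtain ⟨z, hz⟩ := exists_prime_orderOf_dvd_card' (G := φ.ker) r hd
  refine ⟨z, z.2, ?_, ?_⟩
  · have h1 : z ^ r = 1 := by rw [← hz]; exact pow_orderOf_eq_one z
    exact_mod_cast congrArg Subtype.val h1
  · intro h1
    have h2 : z = 1 := Subtype.ext h1
    rw [h2, orderOf_one] at hz
    exact hr.one_lt.ne hz

theorem Cov.cast_ne [Finite G] (h : Cov m φ) {r : ℕ} (hr : r.Prime) (hd : r ∣ Nat.card φ.ker) : (r : F) ≠ 0 := by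
  intro h0
  obtain ⟨z, hz, hzr, hz1⟩ := h.exists_order hr hd
  obtain ⟨c, hc⟩ := h.scal hz
  have h1 := h.scal_pow r hzr hc
  have : Fact r.Prime := ⟨hr⟩
  have hch : CharP F r := by
    obtain ⟨q, hq⟩ := CharP.exists F
    have h2 : q ∣ r := (CharP.cast_eq_zero_iff F q r).1 h0
    rcases (Nat.dvd_prime hr).1 h2 with h3 | h3
    · subst h3
      exact absurd (CharP.cast_eq_zero F 1) (by rw [Nat.cast_one]; exact one_ne_zero)
    · rwa [h3] at hq
  have h3 : ((c : F) - 1) ^ r = 0 := by rw [sub_pow_char, h1, one_pow, sub_self]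
  have h4 : (c : F) = 1 := sub_eq_zero.1 (pow_eq_zero_iff hr.ne_zero |>.1 h3)
  rw [h4] at hc
  exact hz1 (h.eq_one_of_scal hc)

/-- the element acting as `-1` -/
theorem Cov.exists_neg [Finite G] (h : Cov m φ) (hd : 2 ∣ Nat.card φ.ker) :
    ∃ z : G, φ z = 1 ∧ z * z = 1 ∧ z ≠ 1 ∧ (m z : Matrix ι ι F) = -1 ∧ (∀ k, φ k = 1 → k * k = 1 → k ≠ 1 → k = z) := by
  obtain ⟨z, hz, hz2, hz1⟩ := h.exists_order Nat.prime_two hd
  have key : ∀ k, φ k = 1 → k * k = 1 → k ≠ 1 → (m k : Matrix ι ι F) = -1 := by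
    intro k hk hk2 hk1
    obtain ⟨c, hc⟩ := h.scal hk
    have h1 := h.scal_pow 2 (by rw [sq, hk2]) hc
    rcases (mul_self_eq_one_iff.1 (by rw [← sq]; exact h1) : (c : F) = 1 ∨ (c : F) = -1) with h2 | h2
    · rw [h2] at hc
      exact absurd (h.eq_one_of_scal hc) hk1
    · rw [hc, h2, neg_smul, one_smul]
  have h2 : z * z = 1 := by rw [← sq, hz2]
  refine ⟨z, hz, h2, hz1, key z hz h2 hz1, fun k hk hk2 hk1 => ?_⟩
  apply h.inj
  apply Units.ext
  rw [key k hk hk2 hk1, key z hz h2 hz1]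

/-- the cycle type of the involutions of `A₆` -/
theorem cycleType_two {s : Perm (Fin 6)} (hs : s ∈ alternatingGroup (Fin 6)) (h2 : s * s = 1) (hne : s ≠ 1) :
    s.cycleType = {2, 2} := by
  have h2' : s ^ 2 = 1 := by rw [sq, h2]
  have h1 : ∀ n ∈ s.cycleType, n = 2 := by
    intro n hn
    have h3 : n ∣ 2 := (Perm.dvd_of_mem_cycleType hn).trans (orderOf_dvd_of_pow_eq_one h2')
    have h4 := Perm.two_le_of_mem_cycleType hn
    exact le_antisymm (Nat.le_of_dvd (by norm_num) h3) h4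
  have h3 := Multiset.eq_replicate_of_mem h1
  have h4 : s.cycleType.sum ≤ 6 := by
    rw [Perm.sum_cycleType]
    exact (Finset.card_le_univ _).trans (by simp)
  rw [h3, Multiset.sum_replicate, smul_eq_mul] at h4
  have h5 : Multiset.card s.cycleType ≠ 0 := by
    rw [Ne, Multiset.card_eq_zero, Perm.cycleType_eq_zero]
    exact hne
  have h6 : Perm.sign s = 1 := Perm.mem_alternatingGroup.1 hs
  rw [Perm.sign_of_cycleType, h3, Multiset.sum_replicate, Multiset.card_replicate, smul_eq_mul] at h6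
  have h7 : Multiset.card s.cycleType = 1 ∨ Multiset.card s.cycleType = 2 ∨ Multiset.card s.cycleType = 3 := by omega
  rcases h7 with h7 | h7 | h7
  · rw [h7] at h6; exact absurd h6 (by decide)
  · rw [h3, h7]; rfl
  · rw [h7] at h6; exact absurd h6 (by decide)

theorem no_inv_aux [Finite G] (h : Cov m φ) (hc6 : Nat.card φ.ker = 6) {X : G} (hX : X * X = 1) (hφ : φ X = x2) :
    False := by
  obtain ⟨w, hw⟩ := h.surj (s := c[0, 4, 1, 5, 2]) (Perm.mem_alternatingGroup.2 (by decide))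
  obtain ⟨w', hw'⟩ := h.surj (s := c[0, 4] * c[1, 5]) (Perm.mem_alternatingGroup.2 (by decide))
  -- `Y` over `x2 c4`, `S` over `c4²`
  obtain ⟨Y, hY⟩ : ∃ Y, Y = w * X * w⁻¹ := ⟨_, rfl⟩
  obtain ⟨S, hS⟩ : ∃ S, S = w' * X * w'⁻¹ := ⟨_, rfl⟩
  have hYY : Y * Y = 1 := by
    rw [hY]
    calc w * X * w⁻¹ * (w * X * w⁻¹) = w * (X * X) * w⁻¹ := by group
      _ = 1 := by rw [hX]; group
  have hSS : S * S = 1 := by
    rw [hS]
    calc w' * X * w'⁻¹ * (w' * X * w'⁻¹) = w' * (X * X) * w'⁻¹ := by group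
      _ = 1 := by rw [hX]; group
  have hφY : φ Y = x2 * c4 := by rw [hY, map_mul, map_mul, map_inv, hw, hφ]; decide
  have hφS : φ S = c4 ^ 2 := by rw [hS, map_mul, map_mul, map_inv, hw', hφ]; decide
  obtain ⟨C, hC⟩ : ∃ C, C = X * Y := ⟨_, rfl⟩
  have hφC : φ C = c4 := by rw [hC, map_mul, hφ, hφY]; decide
  have hXi : X⁻¹ = X := by rw [inv_eq_iff_mul_eq_one]; exact hX
  have hYi : Y⁻¹ = Y := by rw [inv_eq_iff_mul_eq_one]; exact hYY
  have hinv : X * C * X⁻¹ = C⁻¹ := by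
    rw [hC, _root_.mul_inv_rev, hXi, hYi, ← mul_assoc X X, hX, one_mul]
  -- `C⁴ = 1`
  have hk : φ (S * C ^ 2) = 1 := by rw [map_mul, map_pow, hφS, hφC]; decide
  have hC4 : C ^ 4 = (S * C ^ 2) * (S * C ^ 2) := by
    have h1 := h.central hk (C ^ 2)
    have h2 : S * (S * C ^ 2) = (S * C ^ 2) * S := (h.central hk S).symm
    calc C ^ 4 = (S * S) * C ^ 4 := by rw [hSS, one_mul]
      _ = S * (S * C ^ 2) * C ^ 2 := by rw [show 4 = 2 + 2 from rfl, pow_add]; simp only [mul_assoc]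
      _ = (S * C ^ 2) * S * C ^ 2 := by rw [h2]
      _ = (S * C ^ 2) * (S * C ^ 2) := by simp only [mul_assoc]
  have hC4k : φ (C ^ 4) = 1 := by rw [map_pow, hφC]; decide
  have hC8 : C ^ 8 = 1 := by
    have h1 : X * C ^ 4 * X⁻¹ = (C ^ 4)⁻¹ := by rw [← conj_pow, hinv, inv_pow]
    rw [← h.central hC4k X, mul_inv_cancel_right] at h1
    rw [show 8 = 4 + 4 from rfl, pow_add]
    nth_rewrite 1 [h1]
    exact inv_mul_cancel _
  have h6 := Cov.pow_ker hk
  rw [hc6] at h6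
  have hC4' : C ^ 4 = 1 := by
    have h1 : (S * C ^ 2) ^ 4 = 1 := by
      rw [show 4 = 2 + 2 from rfl, pow_add, pow_two, ← hC4, ← pow_add]
      exact hC8
    rw [hC4, ← pow_two]
    calc (S * C ^ 2) ^ 2 = (S * C ^ 2) ^ 2 * (S * C ^ 2) ^ 4 := by rw [h1, mul_one]
      _ = 1 := by rw [← pow_add]; exact h6
  obtain ⟨z, hz, hz2, hz1, -, -⟩ := h.exists_neg (by rw [hc6]; norm_num)
  have hT : ∀ a ∈ eight.comap φ, ∃ (i : ℤ) (j : Fin 2) (k : G), φ k = 1 ∧ a = k * (C ^ i * X ^ (j : ℕ)) := by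
    rintro a ⟨i, j, hij⟩
    refine ⟨(i : ℕ), j, a * (C ^ (i : ℕ) * X ^ (j : ℕ))⁻¹, ?_, by rw [zpow_natCast]; group⟩
    rw [map_mul, map_inv, map_mul, map_pow, map_pow, hφC, hφ, hij, mul_inv_cancel]
  have h1 := pow_index_mem h.perf (T := eight.comap φ) (E := Subgroup.zpowers (C ^ 2)) (c := z) (by
    intro a ha b hb
    obtain ⟨i, j, k, hk, rfl⟩ := hT a ha
    obtain ⟨i', j', k', hk', rfl⟩ := hT b hb
    have e : k * (C ^ i * X ^ (j : ℕ)) * (k' * (C ^ i' * X ^ (j' : ℕ))) * (k * (C ^ i * X ^ (j : ℕ)))⁻¹ *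
        (k' * (C ^ i' * X ^ (j' : ℕ)))⁻¹ =
        (C ^ i * X ^ (j : ℕ)) * (C ^ i' * X ^ (j' : ℕ)) * (C ^ i * X ^ (j : ℕ))⁻¹ * (C ^ i' * X ^ (j' : ℕ))⁻¹ := by
      generalize C ^ i * X ^ (j : ℕ) = a
      generalize C ^ i' * X ^ (j' : ℕ) = b
      have c1 := h.central hk
      have c2 := h.central hk'
      have c3 : ∀ g, k⁻¹ * g = g * k⁻¹ := fun g => by
        rw [inv_mul_eq_iff_eq_mul, ← mul_assoc, c1, mul_inv_cancel_right]
      have c4 : ∀ g, k'⁻¹ * g = g * k'⁻¹ := fun g => by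
        rw [inv_mul_eq_iff_eq_mul, ← mul_assoc, c2, mul_inv_cancel_right]
      rw [_root_.mul_inv_rev, _root_.mul_inv_rev]
      calc k * a * (k' * b) * (a⁻¹ * k⁻¹) * (b⁻¹ * k'⁻¹) = k * (a * (k' * b) * a⁻¹) * k⁻¹ * (b⁻¹ * k'⁻¹) := by
            simp only [mul_assoc]
        _ = a * (k' * b) * a⁻¹ * (b⁻¹ * k'⁻¹) := by rw [c1, mul_inv_cancel_right]
        _ = a * k' * (b * a⁻¹ * b⁻¹) * k'⁻¹ := by simp only [mul_assoc]
        _ = a * (b * a⁻¹ * b⁻¹) := by rw [mul_assoc a k', c2, mul_assoc, mul_inv_cancel_right]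
        _ = a * b * a⁻¹ * b⁻¹ := by simp only [mul_assoc]
    rw [e]
    exact comm_dihedral hinv hX i i' j j') (h.central hz)
  have hz45 : z ^ 45 = z := by
    rw [show 45 = 2 * 22 + 1 from rfl, pow_succ, pow_mul, pow_two, hz2, one_pow, one_mul]
  rw [h.index_comap, relIndex_eight, hz45] at h1
  obtain ⟨n, hn⟩ := h1
  have hn' : (C ^ 2) ^ n = z := hn
  rcases Int.even_or_odd' n with ⟨k, hk' | hk'⟩
  · rw [hk', _root_.zpow_mul] at hn'
    have e : (C ^ 2) ^ (2 : ℤ) = 1 := by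
      have : (C ^ 2) ^ (2 : ℤ) = C ^ 4 := by norm_cast; rw [← pow_mul]
      rw [this, hC4']
    rw [e, _root_.one_zpow] at hn'
    exact hz1 hn'.symm
  · rw [hk', _root_.zpow_add, _root_.zpow_mul] at hn'
    have e : (C ^ 2) ^ (2 : ℤ) = 1 := by
      have : (C ^ 2) ^ (2 : ℤ) = C ^ 4 := by norm_cast; rw [← pow_mul]
      rw [this, hC4']
    rw [e, _root_.one_zpow, one_mul, _root_.zpow_one] at hn'
    rw [← hn', map_pow, hφC] at hz
    revert hz
    decide

/-- **No lift of an involution is an involution.** -/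
theorem Cov.no_inv [Finite G] (h : Cov m φ) (hc6 : Nat.card φ.ker = 6) {g : G} (hg : g * g = 1) : φ g = 1 := by
  by_contra hne
  have h2 : φ g * φ g = 1 := by rw [← map_mul, hg, map_one]
  obtain ⟨σ, hσ⟩ := isConj_iff.1 ((Perm.isConj_iff_cycleType_eq (σ := φ g) (τ := x2)).2
    (by rw [cycleType_two (h.sign g) h2 hne]; rfl))
  exact no_inv_aux (h.conj σ) (by rw [ker_conj]; exact hc6) hg hσ

/-- squares of lifts of involutions -/
theorem Cov.pow_six [Finite G] (h : Cov m φ) (hc6 : Nat.card φ.ker = 6) {g z : G} (hg : φ g * φ g = 1) (hg1 : φ g ≠ 1)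
    (hz : ∀ k, φ k = 1 → k * k = 1 → k ≠ 1 → k = z) : g ^ 6 = z := by
  have hk : φ (g * g) = 1 := by rw [map_mul, hg]
  have h6 := Cov.pow_ker hk
  rw [hc6] at h6
  have e : g ^ 6 = (g * g) ^ 3 := by rw [← pow_two, ← pow_mul]
  rw [e]
  apply hz
  · rw [map_pow, hk, one_pow]
  · rw [← pow_add, h6]
  · intro h3
    apply hg1
    have h4 : (g * (g * g)) * (g * (g * g)) = 1 := by
      rw [pow_succ, pow_two] at h3
      rw [← h3]
      simp only [mul_assoc]
    have h5 := h.no_inv hc6 h4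
    rw [map_mul, hk, mul_one] at h5
    exact h5

/-- lifts of commuting involutions with product `≠ 1` do not commute -/
theorem Cov.nc_two [Finite G] (h : Cov m φ) (hc6 : Nat.card φ.ker = 6) {x y : G} (hx : φ x * φ x = 1) (hx1 : φ x ≠ 1)
    (hy : φ y * φ y = 1) (hy1 : φ y ≠ 1) (hxy : φ x ≠ φ y) : x * y ≠ y * x := by
  intro hc
  obtain ⟨z, hz, hz2, hz1, -, hzu⟩ := h.exists_neg (by rw [hc6]; norm_num)
  have hcc : φ x * φ y = φ y * φ x := by rw [← map_mul, hc, map_mul]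
  have h1 := h.pow_six hc6 hx hx1 hzu
  have h2 := h.pow_six hc6 hy hy1 hzu
  have h3 : (x * y) ^ 6 = z := by
    apply h.pow_six hc6 _ _ hzu
    · rw [map_mul]
      calc φ x * φ y * (φ x * φ y) = φ x * (φ y * φ x) * φ y := by group
        _ = φ x * φ x * (φ y * φ y) := by rw [← hcc]; group
        _ = 1 := by rw [hx, hy, one_mul]
    · rw [map_mul]
      intro h4
      apply hxy
      calc φ x = φ x * φ y * (φ y * φ y)⁻¹ * φ y := by group
        _ = φ y := by rw [h4, hy]; group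
  rw [(show Commute x y from hc).mul_pow, h1, h2, hz2] at h3
  exact hz1 h3.symm

/-- **The trace vanishes over involutions.** -/
theorem Cov.tr_two [Finite G] (h : Cov m φ) (hc6 : Nat.card φ.ker = 6) {x : G} (hx : φ x * φ x = 1) (hx1 : φ x ≠ 1) :
    tr (m x) = 0 := by
  obtain ⟨σ, hσ⟩ := isConj_iff.1 ((Perm.isConj_iff_cycleType_eq (σ := φ x) (τ := x2)).2
    (by rw [cycleType_two (h.sign x) hx hx1]; rfl))
  have hφ := h.conj σ
  obtain ⟨y, hy⟩ := hφ.surj (s := c4 ^ 2) (Perm.mem_alternatingGroup.2 (by decide))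
  refine h.tr_eq_zero_of_comm (y := y) ?_ (hφ.nc_two (by rw [ker_conj]; exact hc6) ?_ ?_ ?_ ?_ ?_)
  · have h1 : φ x * φ y = φ y * φ x := by
      have e1 : φ x = σ⁻¹ * x2 * σ := by rw [← hσ]; group
      have e2 : φ y = σ⁻¹ * c4 ^ 2 * σ := by
        have hy' : σ * φ y * σ⁻¹ = c4 ^ 2 := hy
        rw [← hy']; group
      rw [e1, e2]
      calc σ⁻¹ * x2 * σ * (σ⁻¹ * c4 ^ 2 * σ) = σ⁻¹ * (x2 * c4 ^ 2) * σ := by group
        _ = σ⁻¹ * (c4 ^ 2 * x2) * σ := by rw [show x2 * c4 ^ 2 = c4 ^ 2 * x2 by decide]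
        _ = σ⁻¹ * c4 ^ 2 * σ * (σ⁻¹ * x2 * σ) := by group
    exact Cov.ker_comm h1
  · change (σ * φ x * σ⁻¹) * (σ * φ x * σ⁻¹) = 1
    rw [hσ]; decide
  · change σ * φ x * σ⁻¹ ≠ 1
    rw [hσ]; decide
  · rw [hy]; decide
  · rw [hy]; decide
  · rw [hy]
    change σ * φ x * σ⁻¹ ≠ c4 ^ 2
    rw [hσ]; decide

end Cfsg.Agent.H930.Six
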