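import Cfsg.Agent.H930.SixPerm
import Cfsg.Agent.H910.Six.Hex

/-!
# Covers of `A₆` with a kernel of order six: orthogonality (helper930)

* `Cov.sum_tr` : `∑ tr g * tr g⁻¹ = |G|`;
* `Cov.four_val` : `n = 12`, `tr g * tr g⁻¹ = 4` over the elements of order five ⟹ `tr C * tr C⁻¹ = -4` over `c4`;
* `Cov.exists_C` : the lift `C` of `c4` with `C⁴ = z`, `X C X⁻¹ = C⁻¹`;
* `Cov.not_all_two` : characteristic `≥ 7`, `n = 12`: the trace is not `2` on all elements of order five.
-/

set_option autoImplicit false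
set_option linter.unusedSectionVars false

namespace Cfsg.Agent.H930.Six

open Cfsg Cfsg.Geo Matrix Equiv Cfsg.Agent.H915.LD
open scoped commutatorElement

universe u v

variable {ι : Type} [Fintype ι] [DecidableEq ι] {F : Type u} [Field F] {G : Type v} [Group G]
  {m : G →* GL ι F} {φ : G →* Perm (Fin 6)}

/-- **Orthogonality.** -/
theorem Cov.sum_tr [Fintype G] (h : Cov m φ) (hn : (Fintype.card ι : F) ≠ 0) :
    ∑ g : G, tr (m g) * tr (m g⁻¹) = (Fintype.card G : F) := by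
  classical
  let S : Matrix ι ι F → Matrix ι ι F := fun E => ∑ g : G, (m g : Matrix ι ι F) * E * (m g⁻¹ : Matrix ι ι F)
  have hcomm : ∀ E, ∃ c : F, S E = c • (1 : Matrix ι ι F) := by
    intro E
    apply h.irr.2
    rintro _ ⟨_, ⟨x, rfl⟩, rfl⟩
    change S E * (m x : Matrix ι ι F) = (m x : Matrix ι ι F) * S E
    simp only [S]
    rw [Finset.sum_mul, Finset.mul_sum]
    refine Fintype.sum_equiv (Equiv.mulLeft x⁻¹) _ _ fun g => ?_
    rw [Equiv.coe_mulLeft, _root_.mul_inv_rev, inv_inv, map_mul, map_mul, Units.val_mul, Units.val_mul]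
    have e : (m x : Matrix ι ι F) * (m x⁻¹ : Matrix ι ι F) = 1 := by
      rw [← Units.val_mul, ← map_mul, mul_inv_cancel, map_one, Units.val_one]
    simp only [← mul_assoc]
    rw [e, one_mul]
  choose c hc using hcomm
  have htr : ∀ E, (Fintype.card ι : F) * c E = (Fintype.card G : F) * E.trace := by
    intro E
    have h1 := congrArg Matrix.trace (hc E)
    rw [Matrix.trace_smul, Matrix.trace_one, smul_eq_mul, Matrix.trace_sum] at h1
    have h2 : ∀ g : G, ((m g : Matrix ι ι F) * E * (m g⁻¹ : Matrix ι ι F)).trace = E.trace := by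
      intro g
      rw [Matrix.trace_mul_comm, ← mul_assoc, ← Units.val_mul, ← map_mul, inv_mul_cancel, map_one, Units.val_one,
        one_mul]
    rw [Finset.sum_congr rfl fun g _ => h2 g, Finset.sum_const, Finset.card_univ, nsmul_eq_mul] at h1
    rw [h1, mul_comm]
  have hent : ∀ a b : ι, ∑ g : G, (m g : Matrix ι ι F) a a * (m g⁻¹ : Matrix ι ι F) b b =
      if a = b then c (Matrix.single a b 1) else 0 := by
    intro a b
    have h1 := congrFun (congrFun (hc (Matrix.single a b 1)) a) b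
    simp only [S] at h1
    rw [Matrix.sum_apply, Matrix.smul_apply, Matrix.one_apply, smul_eq_mul, mul_ite, mul_one, mul_zero] at h1
    rw [← h1]
    refine Finset.sum_congr rfl fun g _ => ?_
    rw [Matrix.mul_apply, Finset.sum_eq_single b]
    · rw [Matrix.mul_single_apply_same, mul_one]
    · intro d _ hd
      rw [Matrix.mul_single_apply_of_ne _ _ _ _ _ hd, zero_mul]
    · intro hb; exact absurd (Finset.mem_univ _) hb
  have h1 : ∑ g : G, tr (m g) * tr (m g⁻¹) = ∑ a : ι, c (Matrix.single a a 1) := by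
    unfold tr Matrix.trace
    simp only [Matrix.diag_apply]
    calc ∑ g : G, (∑ a, (m g : Matrix ι ι F) a a) * ∑ b, (m g⁻¹ : Matrix ι ι F) b b
        = ∑ g : G, ∑ a, ∑ b, (m g : Matrix ι ι F) a a * (m g⁻¹ : Matrix ι ι F) b b := by
          refine Finset.sum_congr rfl fun g _ => ?_
          rw [Finset.sum_mul_sum]
      _ = ∑ a, ∑ b, ∑ g : G, (m g : Matrix ι ι F) a a * (m g⁻¹ : Matrix ι ι F) b b := by
          rw [Finset.sum_comm]
          refine Finset.sum_congr rfl fun a _ => ?_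
          rw [Finset.sum_comm]
      _ = ∑ a : ι, c (Matrix.single a a 1) := by
          refine Finset.sum_congr rfl fun a _ => ?_
          simp only [hent]
          rw [Finset.sum_ite_eq, if_pos (Finset.mem_univ _)]
  rw [h1]
  apply mul_left_cancel₀ hn
  rw [Finset.mul_sum, Finset.sum_congr rfl fun a _ => htr _]
  simp only [Matrix.trace_single_eq_same, mul_one]
  rw [Finset.sum_const, Finset.card_univ, nsmul_eq_mul]

/-- the product `tr g * tr g⁻¹` only depends on the conjugacy class of the permutation -/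
theorem Cov.prod_eq (h : Cov m φ) {g g' t : G} (ht : φ t * φ g = φ g' * φ t) :
    tr (m g) * tr (m g⁻¹) = tr (m g') * tr (m g'⁻¹) := by
  have hk : φ (t * g * t⁻¹ * g'⁻¹) = 1 := by
    rw [map_mul, map_mul, map_mul, map_inv, map_inv, ht]; group
  obtain ⟨k, hkk⟩ : ∃ k, k = t * g * t⁻¹ * g'⁻¹ := ⟨_, rfl⟩
  rw [← hkk] at hk
  obtain ⟨c, hc⟩ := h.scal hk
  have e1 : t * g * t⁻¹ = k * g' := by rw [hkk]; group
  have e2 : t * g⁻¹ * t⁻¹ = k⁻¹ * g'⁻¹ := by
    calc t * g⁻¹ * t⁻¹ = (t * g * t⁻¹)⁻¹ := by group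
      _ = (k * g')⁻¹ := by rw [e1]
      _ = (g' * k)⁻¹ := by rw [h.central hk]
      _ = k⁻¹ * g'⁻¹ := by rw [_root_.mul_inv_rev]
  have hci : (m k⁻¹ : Matrix ι ι F) = ((c⁻¹ : Fˣ) : F) • (1 : Matrix ι ι F) := by
    have h1 : (m k : Matrix ι ι F) * (m k⁻¹ : Matrix ι ι F) = 1 := by
      rw [← Units.val_mul, ← map_mul, mul_inv_cancel, map_one, Units.val_one]
    rw [hc, Matrix.smul_mul, one_mul] at h1
    rw [← h1, smul_smul, Units.inv_mul, one_smul]
  have h1 : tr (m g) = c * tr (m g') := by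
    rw [← tr_conj (m t) (m g), ← map_inv, ← map_mul, ← map_mul, e1]
    exact tr_smul (by rw [map_mul, Units.val_mul, hc, Matrix.smul_mul, one_mul])
  have h2 : tr (m g⁻¹) = ((c⁻¹ : Fˣ) : F) * tr (m g'⁻¹) := by
    rw [← tr_conj (m t) (m g⁻¹), ← map_inv, ← map_mul, ← map_mul, e2]
    exact tr_smul (by rw [map_mul, Units.val_mul, hci, Matrix.smul_mul, one_mul])
  rw [h1, h2]
  calc (c : F) * tr (m g') * (((c⁻¹ : Fˣ) : F) * tr (m g'⁻¹))
      = (c : F) * ((c⁻¹ : Fˣ) : F) * (tr (m g') * tr (m g'⁻¹)) := by ring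
    _ = tr (m g') * tr (m g'⁻¹) := by rw [Units.mul_inv, one_mul]

theorem Cov.one_val (h : Cov m φ) {g : G} (hg : φ g = 1) :
    tr (m g) * tr (m g⁻¹) = (Fintype.card ι : F) ^ 2 := by
  rw [h.prod_eq (g' := 1) (t := 1) (by rw [hg, map_one]), inv_one, map_one]
  unfold tr
  rw [Units.val_one, Matrix.trace_one, sq]

/-- **Traces over the elements of order four.** -/
theorem Cov.four_val [Finite G] (h : Cov m φ) (hc6 : Nat.card φ.ker = 6) (hn : Fintype.card ι = 12)
    (h5 : (5 : F) ≠ 0) (hfive : ∀ g, φ g ^ 5 = 1 → φ g ≠ 1 → tr (m g) * tr (m g⁻¹) = 4) {C : G} (hC : φ C = c4) :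
    tr (m C) * tr (m C⁻¹) = -4 := by
  classical
  have hG : Fintype G := Fintype.ofFinite G
  have h2 : (2 : F) ≠ 0 := by exact_mod_cast h.cast_ne Nat.prime_two (by rw [hc6]; norm_num)
  have h3 : (3 : F) ≠ 0 := by exact_mod_cast h.cast_ne Nat.prime_three (by rw [hc6]; norm_num)
  have h12 : (Fintype.card ι : F) ≠ 0 := by
    rw [hn, show ((12 : ℕ) : F) = 2 * 2 * 3 by norm_num]
    exact mul_ne_zero (mul_ne_zero h2 h2) h3
  set σ : F := tr (m C) * tr (m C⁻¹) with hσ
  let Φ : Perm (Fin 6) → F := fun s =>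
    (if s = 1 then 144 else 0) + (if Perm.sign s = 1 ∧ s ^ 5 = 1 ∧ s ≠ 1 then 4 else 0) +
      (if Perm.sign s = 1 ∧ s ^ 4 = 1 ∧ s ^ 2 ≠ 1 then σ else 0)
  have hΦ : ∀ g, tr (m g) * tr (m g⁻¹) = Φ (φ g) := by
    intro g
    have hs : Perm.sign (φ g) = 1 := Perm.mem_alternatingGroup.1 (h.sign g)
    simp only [Φ]
    by_cases h1 : φ g = 1
    · rw [if_pos h1, if_neg (fun h4 => h4.2.2 h1), if_neg (fun h4 => h4.2.2 (by rw [h1, one_pow])), h.one_val h1, hn]
      norm_num
    rw [if_neg h1, zero_add]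
    by_cases h5' : φ g ^ 5 = 1
    · rw [if_pos ⟨hs, h5', h1⟩, hfive g h5' h1, if_neg, add_zero]
      rintro ⟨-, h4, -⟩
      apply h1
      rw [pow_succ, h4, one_mul] at h5'
      exact h5'
    rw [if_neg (fun h4 => h5' h4.2.1), zero_add]
    by_cases h2' : φ g ^ 2 = 1
    · rw [if_neg (fun h4 => h4.2.2 h2'), h.tr_two hc6 (by rw [← sq, h2']) h1, zero_mul]
    by_cases h4' : φ g ^ 4 = 1
    · rw [if_pos ⟨hs, h4', h2'⟩, hσ]
      obtain ⟨t, ht, hts⟩ := conj_four (φ g) hs h4' h2'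
      obtain ⟨t', rfl⟩ := h.surj (Perm.mem_alternatingGroup.2 ht)
      exact h.prod_eq (t := t') (by rw [hts, hC])
    · rw [if_neg (fun h4 => h4' h4.2.1)]
      have h3' : φ g ^ 3 = 1 := by
        rcases orders (φ g) hs with h6 | h6 | h6 | h6
        · exact absurd h6 h2'
        · exact h6
        · exact absurd h6 h4'
        · exact absurd h6 h5'
      rw [h.tr_three (by rw [hc6]; norm_num) h3' h1, zero_mul]
  have hsum := h.sum_tr h12
  rw [Finset.sum_congr rfl fun g _ => hΦ g] at hsum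
  -- the sum over the permutations
  have hfib : ∀ s : Perm (Fin 6), ((Finset.univ : Finset G).filter (fun g => φ g = s)).card =
      if Perm.sign s = 1 then 6 else 0 := by
    intro s
    split_ifs with hs
    · obtain ⟨g₀, hg₀⟩ := h.surj (Perm.mem_alternatingGroup.2 hs)
      refine Eq.trans ?_ hc6
      rw [Nat.card_eq_fintype_card, ← Fintype.card_coe]
      refine Fintype.card_congr ⟨fun x => ⟨g₀⁻¹ * x.1, ?_⟩, fun k => ⟨g₀ * k.1, ?_⟩, fun x => ?_, fun k => ?_⟩
      · rw [MonoidHom.mem_ker, map_mul, map_inv, hg₀, (Finset.mem_filter.1 x.2).2, inv_mul_cancel]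
      · rw [Finset.mem_filter]
        refine ⟨Finset.mem_univ _, ?_⟩
        rw [map_mul, hg₀, MonoidHom.mem_ker.1 k.2, mul_one]
      · apply Subtype.ext
        simp
      · apply Subtype.ext
        simp
    · rw [Finset.card_eq_zero, Finset.filter_eq_empty_iff]
      rintro g - rfl
      exact hs (Perm.mem_alternatingGroup.1 (h.sign g))
  have hcardG : Fintype.card G = 2160 := by
    have h1 := Finset.card_eq_sum_card_fiberwise (s := (Finset.univ : Finset G)) (t := (Finset.univ : Finset (Perm (Fin 6))))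
      (f := φ) (fun _ _ => Finset.mem_univ _)
    rw [Finset.card_univ] at h1
    rw [h1, Finset.sum_congr rfl fun s _ => hfib s, ← Finset.sum_filter, Finset.sum_const]
    have h3 : ((Finset.univ : Finset (Perm (Fin 6))).filter (fun s => Perm.sign s = 1)).card = 360 := by
      have h4 := card_alt6
      rw [Nat.card_eq_fintype_card] at h4
      rw [← h4, Fintype.card_of_subtype]
      intro x
      rw [Finset.mem_filter, Perm.mem_alternatingGroup]
      exact ⟨fun h => h.2, fun h => ⟨Finset.mem_univ _, h⟩⟩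
    rw [h3]
    rfl
  have hsum2 : ∑ g : G, Φ (φ g) = 6 * (144 + 144 * 4 + 90 * σ) := by
    rw [← Finset.sum_fiberwise_of_maps_to (s := (Finset.univ : Finset G)) (t := (Finset.univ : Finset (Perm (Fin 6))))
      (g := φ) (fun _ _ => Finset.mem_univ _)]
    have h1 : ∀ s : Perm (Fin 6), ∑ g ∈ (Finset.univ : Finset G).filter (fun g => φ g = s), Φ (φ g) = 6 * Φ s := by
      intro s
      rw [Finset.sum_congr rfl (g := fun _ => Φ s) (fun g hg => by rw [(Finset.mem_filter.1 hg).2]), Finset.sum_const,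
        hfib s, nsmul_eq_mul]
      split_ifs with hs
      · norm_num
      · simp only [Φ]
        rw [if_neg (fun h4 => hs (by rw [h4, map_one])), if_neg (fun h4 => hs h4.1), if_neg (fun h4 => hs h4.1)]
        norm_num
    rw [Finset.sum_congr rfl fun s _ => h1 s, ← Finset.mul_sum]
    congr 1
    simp only [Φ]
    rw [Finset.sum_add_distrib, Finset.sum_add_distrib, Finset.sum_ite_eq', if_pos (Finset.mem_univ _),
      ← Finset.sum_filter, ← Finset.sum_filter, Finset.sum_const, Finset.sum_const, count_five, count_four,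
      nsmul_eq_mul, nsmul_eq_mul]
    norm_num
  rw [hsum2, hcardG] at hsum
  have h90 : (90 * 6 : F) ≠ 0 := by
    have : (90 * 6 : F) = 2 * 2 * 3 * 3 * 3 * 5 := by norm_num
    rw [this]
    exact mul_ne_zero (mul_ne_zero (mul_ne_zero (mul_ne_zero (mul_ne_zero h2 h2) h3) h3) h3) h5
  apply mul_left_cancel₀ h90
  push_cast at hsum
  linear_combination hsum

/-- the elements `C` and `X` over `c4` and `x2` -/
theorem Cov.exists_C [Finite G] (h : Cov m φ) (hc6 : Nat.card φ.ker = 6) {z : G}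
    (hzu : ∀ k, φ k = 1 → k * k = 1 → k ≠ 1 → k = z) :
    ∃ C X : G, φ C = c4 ∧ φ X = x2 ∧ C ^ 4 = z ∧ X * C * X⁻¹ = C⁻¹ := by
  obtain ⟨C₀, hC₀⟩ := h.surj (s := c4) (Perm.mem_alternatingGroup.2 (by decide))
  obtain ⟨X, hX⟩ := h.surj (s := x2) (Perm.mem_alternatingGroup.2 (by decide))
  obtain ⟨C, hC⟩ : ∃ C, C = C₀ ^ 9 := ⟨_, rfl⟩
  have hφC : φ C = c4 := by rw [hC, map_pow, hC₀]; decide +kernel
  have hC8 : C ^ 8 = 1 := by
    have h1 : φ (C₀ ^ 4) = 1 := by rw [map_pow, hC₀]; decide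
    have h2 := Cov.pow_ker h1
    rw [hc6] at h2
    rw [hC, ← pow_mul, show 9 * 8 = 4 * 6 * 3 from rfl, pow_mul, pow_mul, h2, one_pow]
  have hC4 : C ^ 4 = z := by
    have h1 := h.pow_six hc6 (g := C ^ 2) (by rw [map_pow, hφC]; decide) (by rw [map_pow, hφC]; decide) hzu
    rw [← pow_mul, show 2 * 6 = 8 + 4 from rfl, pow_add, hC8, one_mul] at h1
    exact h1
  refine ⟨C, X, hφC, hX, hC4, ?_⟩
  obtain ⟨k, hk⟩ : ∃ k, k = X * C * X⁻¹ * C := ⟨_, rfl⟩
  have hk1 : φ k = 1 := by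
    rw [hk, map_mul, map_mul, map_mul, map_inv, hφC, hX]
    decide
  have hcen := h.central hk1
  have e1 : X * C * X⁻¹ = k * C⁻¹ := by rw [hk]; group
  have hk8 : k ^ 8 = 1 := by
    have h1 : (X * C * X⁻¹) ^ 8 = 1 := by rw [conj_pow, hC8]; group
    rw [e1, (show Commute k C⁻¹ from hcen _).mul_pow, inv_pow, hC8, inv_one, mul_one] at h1
    exact h1
  have hk6 := Cov.pow_ker hk1
  rw [hc6] at hk6
  have hk2 : k ^ 2 = 1 := by
    rw [show 8 = 6 + 2 from rfl, pow_add, hk6, one_mul] at hk8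
    exact hk8
  -- `(X C)⁶ = k³ X⁶`
  have hX1 : φ (X * X) = 1 := by rw [map_mul, hX]; decide
  have e2 : (X * C) * (X * C) = k * (X * X) := by
    have h1 : X * C = k * C⁻¹ * X := by rw [← e1]; group
    calc (X * C) * (X * C) = (k * C⁻¹ * X) * (X * C) := by rw [← h1]
      _ = k * C⁻¹ * (X * X * C) := by simp only [mul_assoc]
      _ = k * C⁻¹ * (C * (X * X)) := by rw [h.central hX1]
      _ = k * (X * X) := by simp only [mul_assoc, inv_mul_cancel_left]
  have h3 := h.pow_six hc6 (g := X * C) (by rw [map_mul, hX, hφC]; decide) (by rw [map_mul, hX, hφC]; decide) hzu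
  have h4 := h.pow_six hc6 (g := X) (by rw [hX]; decide) (by rw [hX]; decide) hzu
  have h5 : (X * C) ^ 6 = k ^ 3 * X ^ 6 := by
    rw [show 6 = 2 * 3 from rfl, pow_mul, pow_two, e2, (show Commute k (X * X) from hcen _).mul_pow, pow_mul, pow_two]
  rw [h3, h4] at h5
  have h6 : k ^ 3 = 1 := by
    have : k ^ 3 * z = 1 * z := by rw [← h5, one_mul]
    exact mul_right_cancel this
  have h7 : k = 1 := by
    rw [pow_succ, hk2, one_mul] at h6
    exact h6
  rw [e1, h7, one_mul]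

section big

variable {K : Type*} [Field K]

/-- rank and trace of an idempotent -/
theorem rank_le_card (P : Matrix ι ι K) : P.rank ≤ Fintype.card ι := Matrix.rank_le_card_width P

end big

theorem Cov.not_all_two_aux {K : Type*} [Field K] [IsAlgClosed K] (f : F →+* K) [Finite G] (h : Cov m φ)
    (hc6 : Nat.card φ.ker = 6) (hn : Fintype.card ι = 12)
    (p : ℕ) [hp : Fact p.Prime] [CharP F p] [hcK : CharP K p] (hp7 : 7 ≤ p)
    (hfive : ∀ g, φ g ^ 5 = 1 → φ g ≠ 1 → tr (m g) * tr (m g⁻¹) = 4) : False := by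
  classical
  have hcast : ∀ n : ℕ, ¬ p ∣ n → (n : F) ≠ 0 := fun n hn h0 => hn ((CharP.cast_eq_zero_iff F p n).1 h0)
  have h2 : (2 : F) ≠ 0 := by exact_mod_cast hcast 2 (Nat.not_dvd_of_pos_of_lt (by norm_num) (by omega))
  have h3 : (3 : F) ≠ 0 := by exact_mod_cast hcast 3 (Nat.not_dvd_of_pos_of_lt (by norm_num) (by omega))
  have h5 : (5 : F) ≠ 0 := by exact_mod_cast hcast 5 (Nat.not_dvd_of_pos_of_lt (by norm_num) (by omega))
  obtain ⟨z, hz, hz2, hz1, hzm, hzu⟩ := h.exists_neg (by rw [hc6]; norm_num)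
  obtain ⟨C, X, hC, hX, hC4, hXC⟩ := h.exists_C hc6 hzu
  have hval := h.four_val hc6 hn h5 hfive hC
  have hreal : tr (m C⁻¹) = tr (m C) := by rw [← hXC, map_mul, map_mul, map_inv, tr_conj]
  rw [hreal] at hval
  -- matrices over the algebraic closure
  let M : G →* Matrix ι ι K := ((f.mapMatrix : Matrix ι ι F →+* Matrix ι ι K).toMonoidHom).comp
    ((Units.coeHom _).comp m)
  have hMtr : ∀ g, (M g).trace = f (tr (m g)) := by
    intro g
    change (((m g : Matrix ι ι F)).map f).trace = _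
    unfold tr Matrix.trace
    rw [map_sum]
    rfl
  have hMz : M z = -1 := by
    change ((m z : Matrix ι ι F)).map f = -1
    rw [hzm]
    ext i j
    rw [Matrix.map_apply, Matrix.neg_apply, Matrix.neg_apply, map_neg, Matrix.one_apply, Matrix.one_apply]
    split_ifs <;> simp
  have hMi : ∀ g, M g * M g⁻¹ = 1 := fun g => by rw [← map_mul, mul_inv_cancel, map_one]
  have hMi' : ∀ g, M g⁻¹ * M g = 1 := fun g => by rw [← map_mul, inv_mul_cancel, map_one]
  obtain ⟨N, hN⟩ : ∃ N, N = M (C ^ 2) := ⟨_, rfl⟩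
  have hNN : N * N = -1 := by rw [hN, ← map_mul, ← pow_add, hC4, hMz]
  have hNi : M (C ^ 2)⁻¹ = -N := by
    have h1 : M (C ^ 2)⁻¹ = M (C ^ 2)⁻¹ * (N * -N) := by rw [mul_neg, hNN, neg_neg, mul_one]
    rw [h1, ← mul_assoc, hN, hMi', one_mul]
  obtain ⟨R, hR⟩ : ∃ R, R = M C + M C⁻¹ := ⟨_, rfl⟩
  have hRR : R * R = 2 := by
    rw [hR, mul_add, add_mul, add_mul, hMi, hMi', ← map_mul, ← map_mul, ← pow_two, ← hN, ← pow_two, inv_pow, hNi]
    rw [← one_add_one_eq_two]
    abel
  have hXR : M X * R * M X⁻¹ = R := by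
    rw [hR, mul_add, add_mul, ← map_mul, ← map_mul, ← map_mul, ← map_mul, hXC]
    have e : X * C⁻¹ * X⁻¹ = C := by
      calc X * C⁻¹ * X⁻¹ = (X * C * X⁻¹)⁻¹ := by group
        _ = C := by rw [hXC, inv_inv]
    rw [e, add_comm]
  have hXN : M X * N * M X⁻¹ = -N := by
    rw [hN, ← map_mul, ← map_mul, ← conj_pow, hXC, inv_pow, hNi, hN]
  have hCR : N * R = R * N := by
    rw [hN, hR, mul_add, add_mul, ← map_mul, ← map_mul, ← map_mul, ← map_mul]
    congr 2 <;> group
  obtain ⟨s, hs⟩ : ∃ s, s = f (tr (m C)) := ⟨_, rfl⟩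
  have hss : s * s = -4 := by
    rw [hs, ← map_mul, hval, map_neg, map_ofNat]
  have hRt : R.trace = 2 * s := by
    rw [hR, Matrix.trace_add, hMtr, hMtr, hreal, ← hs, two_mul]
  have hcastK : ∀ n : ℕ, ¬ p ∣ n → (n : K) ≠ 0 := fun n hn h0 => hn ((CharP.cast_eq_zero_iff K p n).1 h0)
  have h2K : (2 : K) ≠ 0 := by exact_mod_cast hcastK 2 (Nat.not_dvd_of_pos_of_lt (by norm_num) (by omega))
  -- square roots
  obtain ⟨w, hw⟩ := IsAlgClosed.exists_pow_nat_eq (2 : K) (n := 2) (by norm_num)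
  obtain ⟨i, hi⟩ := IsAlgClosed.exists_pow_nat_eq (-1 : K) (n := 2) (by norm_num)
  have hw0 : w ≠ 0 := by rintro rfl; rw [zero_pow (by norm_num)] at hw; exact h2K hw.symm
  have hi0 : i ≠ 0 := by
    rintro rfl
    rw [zero_pow (by norm_num)] at hi
    exact one_ne_zero (neg_eq_zero.1 hi.symm)
  -- the idempotents
  obtain ⟨P, hP⟩ : ∃ P : Matrix ι ι K, P = (2 : K)⁻¹ • (1 + w⁻¹ • R) := ⟨_, rfl⟩
  have hwR : (w⁻¹ • R) * (w⁻¹ • R) = 1 := by
    rw [Matrix.smul_mul, Matrix.mul_smul, smul_smul, hRR]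
    ext a b
    rw [Matrix.smul_apply, smul_eq_mul]
    have : (2 : Matrix ι ι K) a b = 2 * (1 : Matrix ι ι K) a b := by
      rw [← one_add_one_eq_two, Matrix.add_apply, ← one_add_one_eq_two, add_mul, one_mul]
    rw [this, ← mul_assoc, ← hw]
    rw [show w⁻¹ * w⁻¹ * w ^ 2 = 1 by field_simp, one_mul]
  have hPP : P * P = P := by
    rw [hP, Matrix.smul_mul, Matrix.mul_smul, add_mul, mul_add, mul_add, hwR, one_mul, mul_one, one_mul, smul_smul]
    have : (1 + w⁻¹ • R + (w⁻¹ • R + 1) : Matrix ι ι K) = (2 : K) • (1 + w⁻¹ • R) := by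
      rw [two_smul]; abel
    rw [this, smul_smul]
    congr 1
    field_simp
  obtain ⟨Q, hQ⟩ : ∃ Q : Matrix ι ι K, Q = (2 : K)⁻¹ • (P * (1 + i⁻¹ • N)) := ⟨_, rfl⟩
  have hPR : P * N = N * P := by
    rw [hP, Matrix.smul_mul, Matrix.mul_smul, add_mul, mul_add, one_mul, mul_one, Matrix.smul_mul, Matrix.mul_smul, hCR]
  have hiN : (i⁻¹ • N) * (i⁻¹ • N) = 1 := by
    rw [Matrix.smul_mul, Matrix.mul_smul, smul_smul, hNN, smul_neg, ← neg_smul]
    rw [show -(i⁻¹ * i⁻¹) = 1 from ?_, one_smul]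
    have : i⁻¹ * i⁻¹ = (i ^ 2)⁻¹ := by rw [sq, mul_inv]
    rw [this, hi]; norm_num
  have hQQ : Q * Q = Q := by
    have e1 : (1 + i⁻¹ • N) * P = P * (1 + i⁻¹ • N) := by
      rw [add_mul, mul_add, one_mul, mul_one, Matrix.smul_mul, Matrix.mul_smul, hPR]
    have e2 : (1 + i⁻¹ • N) * (1 + i⁻¹ • N) = (2 : K) • (1 + i⁻¹ • N) := by
      rw [add_mul, mul_add, mul_add, hiN, one_mul, mul_one, one_mul, two_smul]; abel
    rw [hQ, Matrix.smul_mul, Matrix.mul_smul, smul_smul]
    have e3 : P * (1 + i⁻¹ • N) * (P * (1 + i⁻¹ • N)) = (2 : K) • (P * (1 + i⁻¹ • N)) := by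
      calc P * (1 + i⁻¹ • N) * (P * (1 + i⁻¹ • N)) = P * ((1 + i⁻¹ • N) * P) * (1 + i⁻¹ • N) := by
            simp only [mul_assoc]
        _ = P * P * ((1 + i⁻¹ • N) * (1 + i⁻¹ • N)) := by rw [e1]; simp only [mul_assoc]
        _ = (2 : K) • (P * (1 + i⁻¹ • N)) := by rw [hPP, e2, Matrix.mul_smul]
    rw [e3, smul_smul]
    congr 1
    field_simp
  have hrQ : Q.rank ≤ P.rank := by
    have : Q = P * ((2 : K)⁻¹ • (1 + i⁻¹ • N)) := by rw [hQ, Matrix.mul_smul]
    rw [this]
    exact Matrix.rank_mul_le_left _ _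
  have hrP : P.rank ≤ 12 := by rw [← hn]; exact rank_le_card P
  have htP : (P.rank : K) = 6 + s * w⁻¹ := by
    rw [← H910.Six.trace_idem hPP, hP, Matrix.trace_smul, Matrix.trace_add, Matrix.trace_one, Matrix.trace_smul, hRt, hn,
      smul_eq_mul, smul_eq_mul]
    push_cast
    field_simp
    ring
  have htNP : (P * N).trace = 0 := by
    have h1 : M X * (P * N) * M X⁻¹ = -(P * N) := by
      have h4 : M X * P * M X⁻¹ = P := by
        rw [hP, Matrix.mul_smul, Matrix.smul_mul, mul_add, add_mul, mul_one, hMi, Matrix.mul_smul, Matrix.smul_mul, hXR]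
      calc M X * (P * N) * M X⁻¹ = (M X * P * M X⁻¹) * (M X * N * M X⁻¹) := by
            rw [← mul_assoc (M X * P * M X⁻¹), ← mul_assoc (M X * P * M X⁻¹), mul_assoc (M X * P) (M X⁻¹), hMi', mul_one]
            simp only [mul_assoc]
        _ = -(P * N) := by rw [h4, hXN, mul_neg]
    have h4 := congrArg Matrix.trace h1
    rw [Matrix.trace_mul_comm, ← mul_assoc, hMi', one_mul, Matrix.trace_neg] at h4
    have h6 : (2 : K) * (P * N).trace = 0 := by rw [two_mul]; nth_rewrite 1 [h4]; ring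
    exact (mul_eq_zero.1 h6).resolve_left h2K
  have htQ : 2 * (Q.rank : K) = P.rank := by
    rw [← H910.Six.trace_idem hQQ, ← H910.Six.trace_idem hPP, hQ, Matrix.trace_smul, mul_add, mul_one, Matrix.trace_add,
      Matrix.mul_smul, Matrix.trace_smul, htNP, smul_zero, add_zero, smul_eq_mul, ← mul_assoc, mul_inv_cancel₀ h2K, one_mul]
  -- arithmetic
  have key : (((P.rank : ℤ) - 6) ^ 2 + 2 : ℤ) = (((P.rank : ℤ) - 6) ^ 2 + 2 : ℤ) := rfl
  have h7 : ((((P.rank : ℤ) - 6) ^ 2 + 2 : ℤ) : K) = 0 := by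
    push_cast
    rw [htP, add_sub_cancel_left, mul_pow, inv_pow, hw, sq, hss]
    field_simp
    ring
  have h8 : (p : ℤ) ∣ ((P.rank : ℤ) - 6) ^ 2 + 2 := (CharP.intCast_eq_zero_iff K p _).1 h7
  have h9 : (((2 * (Q.rank : ℤ)) - P.rank : ℤ) : K) = 0 := by
    push_cast
    rw [htQ, sub_self]
  have h10 : (p : ℤ) ∣ (2 * (Q.rank : ℤ)) - P.rank := (CharP.intCast_eq_zero_iff K p _).1 h9
  obtain ⟨r, hr⟩ : ∃ r, r = P.rank := ⟨_, rfl⟩
  obtain ⟨r', hr'⟩ : ∃ r', r' = Q.rank := ⟨_, rfl⟩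
  rw [← hr, ← hr'] at hrQ h10
  rw [← hr] at h8 hrP
  have hsm : ∀ a b : ℕ, ¬ (p : ℤ) ∣ ((2 ^ a * 3 ^ b : ℕ) : ℤ) := by
    intro a b hd
    rcases (Nat.Prime.dvd_mul hp.out).1 (Int.natCast_dvd_natCast.1 hd) with h11 | h11
    · have := Nat.le_of_dvd (by norm_num) (hp.out.dvd_of_dvd_pow h11)
      omega
    · have := Nat.le_of_dvd (by norm_num) (hp.out.dvd_of_dvd_pow h11)
      omega
  have h11 : (p : ℤ) ∣ 11 → p = 11 := fun hd =>
    (Nat.prime_dvd_prime_iff_eq hp.out (by norm_num)).1 (Int.natCast_dvd_natCast.1 (by exact_mod_cast hd))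
  have hcases : r = 0 ∨ r = 12 := by
    by_contra hcon
    push Not at hcon
    obtain ⟨hr0, hr12⟩ := hcon
    interval_cases r
    · exact hr0 rfl
    · exact hsm 0 3 (by norm_num at h8 ⊢; exact h8)
    · exact hsm 1 2 (by norm_num at h8 ⊢; exact h8)
    · have := h11 (by norm_num at h8; exact h8)
      subst this
      omega
    · exact hsm 1 1 (by norm_num at h8 ⊢; exact h8)
    · exact hsm 0 1 (by norm_num at h8 ⊢; exact h8)
    · exact hsm 1 0 (by norm_num at h8 ⊢; exact h8)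
    · exact hsm 0 1 (by norm_num at h8 ⊢; exact h8)
    · exact hsm 1 1 (by norm_num at h8 ⊢; exact h8)
    · have := h11 (by norm_num at h8; exact h8)
      subst this
      omega
    · exact hsm 1 2 (by norm_num at h8 ⊢; exact h8)
    · exact hsm 0 3 (by norm_num at h8 ⊢; exact h8)
    · exact hr12 rfl
  -- `R` is a scalar
  have hscal : ∃ c : K, R = c • (1 : Matrix ι ι K) := by
    have hRP : R = w • ((2 : K) • P - 1) := by
      rw [hP, smul_smul, mul_inv_cancel₀ h2K, one_smul, add_sub_cancel_left, smul_smul, mul_inv_cancel₀ hw0, one_smul]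
    rcases hcases with h12 | h12
    · have hP0 : P = 0 := H910.Six.eq_zero_of_rank (by rw [← hr, h12])
      refine ⟨-w, ?_⟩
      rw [hRP, hP0, smul_zero, zero_sub, smul_neg, neg_smul]
    · have hP1 : P = 1 := by
        have h13 : LinearMap.range P.mulVecLin = ⊤ := by
          apply Submodule.eq_top_of_finrank_eq
          rw [Module.finrank_fintype_fun_eq_card, hn]
          change P.rank = 12
          rw [← hr, h12]
        apply Matrix.toLin'.injective
        rw [Matrix.toLin'_one]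
        apply LinearMap.ext
        intro v
        obtain ⟨u, hu⟩ := LinearMap.range_eq_top.1 h13 v
        rw [Matrix.toLin'_apply, LinearMap.id_apply, ← hu, Matrix.mulVecLin_apply, Matrix.mulVec_mulVec, hPP]
      refine ⟨w, ?_⟩
      rw [hRP, hP1]
      congr 1
      rw [two_smul, add_sub_cancel_left]
  obtain ⟨c, hc⟩ := hscal
  obtain ⟨g, hg⟩ := h.surj (s := c[0, 1, 2]) (Perm.mem_alternatingGroup.2 (by decide))
  have h3' : ∀ x : G, φ x ^ 3 = 1 → φ x ≠ 1 → (M x).trace = 0 := by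
    intro x hx hx1
    rw [hMtr, h.tr_three (by rw [hc6]; norm_num) hx hx1, map_zero]
  have h14 : (R * (M g * R * M g⁻¹)).trace = 24 := by
    have e1 : M g * R * M g⁻¹ = R := by
      rw [hc, Matrix.mul_smul, Matrix.smul_mul, mul_one, hMi]
    rw [e1, hRR]
    have e2 : (2 : Matrix ι ι K) = (2 : K) • 1 := by
      rw [two_smul, one_add_one_eq_two]
    rw [e2, Matrix.trace_smul, Matrix.trace_one, hn, smul_eq_mul]
    norm_num
  have h15 : (R * (M g * R * M g⁻¹)).trace = 0 := by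
    rw [hR]
    simp only [mul_add, add_mul, Matrix.trace_add, ← map_mul]
    rw [h3', h3', h3', h3', add_zero, add_zero] <;>
    · simp only [map_mul, map_inv, hC, hg]
      decide +kernel
  rw [h15] at h14
  have h24 : ¬ p ∣ 24 := by
    intro hd
    exact hsm 3 1 (by exact_mod_cast Int.natCast_dvd_natCast.2 hd)
  exact hcastK 24 h24 (by exact_mod_cast h14.symm)

/-- **Characteristic `≥ 7`, `n = 12`: the trace is not `2` on all the elements of order five.** -/
theorem Cov.not_all_two [Finite G] (h : Cov m φ) (hc6 : Nat.card φ.ker = 6) (hn : Fintype.card ι = 12)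
    (p : ℕ) [hp : Fact p.Prime] [CharP F p] (hp7 : 7 ≤ p)
    (hfive : ∀ g, φ g ^ 5 = 1 → φ g ≠ 1 → tr (m g) * tr (m g⁻¹) = 4) : False := by
  have : CharP (AlgebraicClosure F) p := (RingHom.charP_iff (algebraMap F (AlgebraicClosure F))
    (algebraMap F (AlgebraicClosure F)).injective p).1 inferInstance
  exact h.not_all_two_aux (algebraMap F (AlgebraicClosure F)) hc6 hn p hp7 hfive

end Cfsg.Agent.H930.Six
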